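import Cfsg.Agent.H12.CLSpec

/-! CL3 tower, chapter 3, job N0. -/

set_option autoImplicit false

namespace H61.CL

open H12.CL Module Finset

theorem cover {K V ι : Type} [Field K] [Finite K] [AddCommGroup V] [Module K V] [Finite V]
    (I : Finset ι) (U : ι → Submodule K V) (h : ∀ v, v ≠ 0 → ∃ i ∈ I, v ∈ U i) :
    Nat.card K ^ finrank K V - 1 ≤ ∑ i ∈ I, (Nat.card K ^ finrank K (U i) - 1) := by
  classical
  have := Fintype.ofFinite V
  have : (univ : Finset V).erase 0 ⊆ I.biUnion fun i => (univ.filter (· ∈ U i)).erase 0 := fun v hv => by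
    obtain ⟨i, a, b⟩ := h v (ne_of_mem_erase hv)
    exact mem_biUnion.2 ⟨i, a, by simpa [b] using ne_of_mem_erase hv⟩
  have := (card_le_card this).trans card_biUnion_le
  rw [card_erase_of_mem (mem_univ _), card_univ, ← Nat.card_eq_fintype_card,
    natCard_eq_pow_finrank (K := K)] at this
  refine this.trans (sum_le_sum fun i _ => ?_)
  rw [card_erase_of_mem (by simp), ← natCard_eq_pow_finrank, ← Fintype.card_subtype,
    Nat.card_eq_fintype_card]

theorem count {K V ι : Type} [Field K] [Finite K] [AddCommGroup V] [Module K V] [Finite V]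
    [Nontrivial V] (I : Finset ι) (U : ι → Submodule K V) (h : ∀ v, v ≠ 0 → ∃ i ∈ I, v ∈ U i)
    (h0 : ∀ i ∈ I, U i ≠ ⊥) (h1 : ∀ i ∈ I, U i ≠ ⊤)
    (hd : ∀ i ∈ I, ∀ j ∈ I, i ≠ j → Disjoint (U i) (U j)) (c1 : #I ≤ (Nat.card K - 1) * 3)
    (c2 : #I ≤ finrank K V * 3) : Nat.card K ≤ 5 ∧ finrank K V = 2 := by
  classical
  have hc := cover I U h
  obtain ⟨v, v0⟩ := exists_ne (0 : V)
  obtain ⟨i, hi, mi⟩ := exists_max_image I (fun i => finrank K (U i)) ((h v v0).imp fun _ => And.left)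
  obtain ⟨w, hw⟩ : ∃ w, w ∉ U i := by by_contra! c; exact h1 i hi (eq_top_iff.2 fun w _ => c w)
  obtain ⟨j, hj, mj⟩ := exists_max_image (I.erase i) (fun i => finrank K (U i)) (by
    obtain ⟨j, a, b⟩ := h w fun c => hw (c ▸ zero_mem _)
    exact ⟨j, mem_erase.2 ⟨fun c => hw (c ▸ b), a⟩⟩)
  have hj' := mem_erase.1 hj
  have d := Submodule.finrank_add_finrank_le_of_disjoint (hd i hi j hj'.2 hj'.1.symm)
  have k1 : 1 ≤ finrank K (U j) := Submodule.one_le_finrank_iff.2 (h0 j hj'.2)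
  have k2 := mi j hj'.2
  have q1 : 1 < Nat.card K := Finite.one_lt_card
  rw [← add_sum_erase _ _ hi] at hc
  have s := sum_le_card_nsmul (I.erase i) (fun i => Nat.card K ^ finrank K (U i) - 1) _ fun l hl =>
    Nat.sub_le_sub_right (Nat.pow_le_pow_right q1.le (mj l hl)) 1
  rw [smul_eq_mul] at s
  have e := card_erase_add_one hi
  have p := Nat.pow_le_pow_right q1.le d
  rw [pow_add] at p
  replace hc := hc.trans (Nat.add_le_add_left s _)
  clear s mi mj
  generalize finrank K (U i) = a at *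
  generalize finrank K (U j) = b at *
  generalize finrank K V = n at *
  generalize #(I.erase i) = l at *
  generalize Nat.card K = q at *
  obtain ⟨q, rfl⟩ : ∃ q', q = q' + 2 := ⟨q - 2, by omega⟩
  have A := Nat.one_le_pow a (q + 2) (by omega)
  obtain ⟨B, hB⟩ : ∃ B, (q + 2) ^ b = B + 2 :=
    ⟨(q + 2) ^ b - 2, by have := Nat.le_self_pow (n := b) (by omega) (q + 2); omega⟩
  have m : (q + 2) ^ a ≤ l := Nat.le_of_mul_le_mul_right (c := B + 1) (by
    rw [hB] at hc p; simp only [Nat.add_one_sub_one, mul_add] at *; omega) (by omega)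
  obtain rfl : a = 1 := by
    by_contra c
    have := Nat.pow_le_pow_right (n := q + 2) (by omega) (show 2 ≤ a by omega)
    simp only [Nat.add_one_sub_one] at c1; nlinarith
  obtain rfl : b = 1 := by omega
  simp only [pow_one, Nat.add_one_sub_one] at *
  have t : (q + 2) ^ n ≤ (l + 1) * (q + 1) + 1 := by rw [add_mul]; omega
  obtain rfl : n = 2 := by
    by_contra c
    have := Nat.pow_le_pow_right (n := q + 2) (by omega) (show 3 ≤ n by omega)
    nlinarith
  exact ⟨by nlinarith, rfl⟩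

theorem zz : (∀ x : ZMod 2, x ≠ 0 → x = 1) ∧ (1 : ZMod 2) + 1 ≠ 1 ∧ (1 : ZMod 2) ≠ 0 := by decide

theorem jobN0 : JobN0 := by
  intro r _ K V W _ _ _ _ _ _ _ _ _ _ S ty an y yi hy
  classical
  obtain ⟨d, d0⟩ := exists_ne (0 : W)
  obtain ⟨rfl, Q, hQ, gQ⟩ := ty.resolve_left fun c => d0 (an d (c d))
  have := Fintype.ofFinite K
  have := Fintype.ofFinite W
  have z2 : ∀ x : ZMod 2, x ≠ 0 → x = 1 := zz.1
  have aa : ∀ a : W, a + a = 0 := fun a => by
    rw [← two_smul (ZMod 2) a, show (2 : ZMod 2) = 0 from rfl, zero_smul]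
  have ne : ∀ {a b : W}, a ≠ b → a + b ≠ 0 := fun {a b} h c =>
    h (add_right_cancel (c.trans (aa b).symm))
  have Q1 : ∀ a, a ≠ 0 → Q a = 1 := fun a h => z2 _ fun c => h (an a ((gQ a).2 c))
  have B1 : ∀ a b, a ≠ 0 → b ≠ 0 → a ≠ b → S.B a b = 1 := fun a b ha hb h => by
    have := hQ a b
    rw [Q1 a ha, Q1 b hb, Q1 _ (ne h)] at this
    exact (zero_add _).symm.trans this.symm
  obtain ⟨d', e⟩ : ∃ d', S.B d d' ≠ 0 := by by_contra! c; exact d0 (S.sp.nd d c)
  have d1 : d' ≠ 0 := fun c => e (by simp [c])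
  have dd : d ≠ d' := fun c => e (c ▸ S.sp.alt d)
  have w3 : #(univ.erase (0 : W)) ≤ 3 := (card_le_card (t := {d, d', d + d'}) fun a ha => by
    by_contra c
    simp only [mem_insert, mem_singleton, not_or] at c
    have := B1 d _ d0 (ne c.2.1) fun k => c.2.2 (by rw [k, add_assoc, aa, add_zero])
    rw [map_add, B1 d a d0 (ne_of_mem_erase ha) (Ne.symm c.1), z2 _ e] at this
    exact zz.2.1 this).trans card_le_three
  obtain ⟨v₀, v0⟩ := exists_ne (0 : V)
  have sq : ∀ a, ∃ κ : K, κ ≠ 0 ∧ ∀ v, S.t a (S.t a v) = κ • v := fun a => by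
    obtain ⟨c, c0, hc⟩ := S.t_mul a a
    exact ⟨c, c0, fun v => by simpa [aa, S.t_zero] using LinearMap.congr_fun hc v⟩
  choose κ κ0 hκ using sq
  have ns : ∀ a, a ≠ 0 → quadraticChar K (κ a) = -1 := fun a ha =>
    quadraticChar_neg_one_iff_not_isSquare.2 fun ⟨s, hs⟩ => ha (an a (by
      by_cases c : S.t a v₀ + s • v₀ = 0
      · exact ⟨v₀, v0, -s, by rw [neg_smul, eq_neg_of_add_eq_zero_left c]⟩
      · exact ⟨_, c, s, by rw [map_add, map_smul, hκ, hs, smul_add, smul_smul, add_comm]⟩))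
  have q4 : Fintype.card K % 4 = 3 := by
    by_contra c
    have m1 := (quadraticChar_one_iff_isSquare (neg_ne_zero.2 one_ne_zero)).2
      (FiniteField.isSquare_neg_one_iff.2 c)
    obtain ⟨c, c0, hc⟩ := S.t_mul d d'
    have x1 : S.χ 1 = -1 := (mul_self_eq_one_iff.1 ((S.χ_add 1 1).symm.trans
      ((S.χ_eq _).2 rfl))).resolve_left fun k => zz.2.2 ((S.χ_eq 1).1 k)
    have cm := fun v => LinearMap.congr_fun (S.comm d' d) v
    have hc := fun v => LinearMap.congr_fun hc v
    simp only [B1 d' d d1 d0 dd.symm, x1, End.mul_apply, LinearMap.smul_apply] at cm hc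
    have : (c ^ 2 * κ (d + d')) • v₀ = (-1 * κ d * κ d') • v₀ := by
      have := hc (S.t d (S.t d' v₀))
      rw [cm, map_smul, hκ, hκ, hc, map_smul, hκ] at this
      rw [pow_two, mul_smul, mul_smul, ← this, smul_smul, smul_smul]
    have := congrArg (quadraticChar K) (smul_left_injective K v0 this)
    rw [map_mul, map_mul, map_mul, m1, quadraticChar_sq_one' c0, ns d d0, ns d' d1, ns _ (ne dd)] at this
    exact absurd this (by decide)
  let U : W × K → Submodule K V := fun p => LinearMap.ker (y - p.2 • S.t p.1)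
  have mU : ∀ {p v}, v ∈ U p ↔ y v = p.2 • S.t p.1 v := by simp [U, sub_eq_zero]
  refine or_iff_not_imp_left.2 fun ht => ?_
  let I := univ.filter fun p => p.1 ≠ 0 ∧ U p ≠ ⊥
  have mI : ∀ {p}, p ∈ I ↔ p.1 ≠ 0 ∧ ∃ v, y v = p.2 • S.t p.1 v ∧ v ≠ 0 := by
    simp [I, Submodule.ne_bot_iff, mU]
  have c0 : ∀ {c : K} {a v}, v ≠ 0 → y v = c • S.t a v → c ≠ 0 := fun h e k =>
    h (yi (by rw [e, k, zero_smul, map_zero]))
  have fib : ∀ n, (∀ a, #{p ∈ I | p.1 = a} ≤ n) → #I ≤ n * 3 := fun n h =>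
    (card_le_mul_card_image_of_maps_to (t := univ.erase 0) (f := Prod.fst)
      (fun p hp => by simpa using (mI.1 hp).1) n fun a _ => h a).trans (Nat.mul_le_mul_left n w3)
  have := count I U (fun v h => by
      obtain ⟨a, ha, c, e⟩ := hy v
      exact ⟨(a, c), mI.2 ⟨ha, v, e, h⟩, mU.2 e⟩)
    (fun p hp => (mem_filter.1 hp).2.2)
    (fun p _ e => ht ⟨p.1, p.2, LinearMap.ext fun v => mU.1 (e ▸ trivial)⟩)
    (fun p _ p' _ e => Submodule.disjoint_def.2 fun v a b => by
      by_contra h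
      have a := mU.1 a
      have b := mU.1 b
      obtain ⟨c, c1, hc⟩ := S.t_mul p.1 p'.1
      have e1 := congrArg (S.t p.1) (a.symm.trans b)
      rw [map_smul, map_smul, hκ, ← End.mul_apply, hc, LinearMap.smul_apply, smul_smul, smul_smul] at e1
      have k := mul_ne_zero (c0 h b) c1
      have e2 : p.1 = p'.1 := by
        by_contra f
        exact ne f (an _ ⟨v, h, (p'.2 * c)⁻¹ * (p.2 * κ p.1), by
          rw [mul_smul, e1, smul_smul, inv_mul_cancel₀ k, one_smul]⟩)
      refine e (Prod.ext e2 (smul_left_injective K (m := S.t p.1 v) (fun f => h ?_) ?_))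
      · exact yi (by rw [a, f, smul_zero, map_zero])
      · exact a.symm.trans (e2 ▸ b))
    (fib _ fun a => by
      rw [Nat.card_eq_fintype_card, ← card_univ, ← card_erase_of_mem (mem_univ (0 : K))]
      refine card_le_card_of_injOn Prod.snd (fun p hp => ?_) fun p hp p' hp' e => ?_
      · obtain ⟨-, v, e, h⟩ := mI.1 (mem_filter.1 hp).1
        simpa using c0 h e
      · exact Prod.ext ((mem_filter.1 hp).2.trans (mem_filter.1 hp').2.symm) e)
    (fib _ fun a => by
      choose v hv using fun p : {p ∈ I | p.1 = a} => (mI.1 (mem_filter.1 p.2).1).2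
      rw [← Fintype.card_coe]
      refine (End.eigenvectors_linearIndependent' (S.t a * y) (fun p => p.1.2 * κ a) (fun p p' e => ?_) v
        fun p => ⟨End.mem_eigenspace_iff.2 ?_, (hv p).2⟩).fintype_card_le_finrank
      · exact Subtype.ext (Prod.ext ((mem_filter.1 p.2).2.trans (mem_filter.1 p'.2).2.symm)
          (mul_right_cancel₀ (κ0 a) e))
      · rw [End.mul_apply, (hv p).1, (mem_filter.1 p.2).2, map_smul, hκ, smul_smul])
  rw [← Nat.card_eq_fintype_card] at q4
  exact ⟨by omega, this.2⟩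

end H61.CL
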