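import Cfsg.Agent.H40.E7Spec

/-! Jobs ModU, ModL, ModG of the tower E7S: counting fixed spaces on the 56-dimensional module. -/

set_option autoImplicit false

namespace H61.E7M

open Module H40.E7S

universe u

variable {G : Type*} [Group G] {ρ : Representation (ZMod 2) G V56}

/-- The dimension of the common fixed space of two elements. -/
noncomputable def f2 (ρ : Representation (ZMod 2) G V56) (g h : G) : ℕ := dm (kf (ρ g) ⊓ kf (ρ h))

theorem f2_comm (g h : G) : f2 ρ g h = f2 ρ h g := by rw [f2, inf_comm]; rfl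

theorem f2_le (g h : G) : f2 ρ g h ≤ fd ρ g := Submodule.finrank_mono inf_le_left

theorem f2_le_mul (g h : G) : f2 ρ g h ≤ fd ρ (g * h) :=
  Submodule.finrank_mono fun v hv => by
    rw [mem_kf, map_mul, Module.End.mul_apply, mem_kf.1 hv.2, mem_kf.1 hv.1]

theorem dim56 : finrank (ZMod 2) V56 = 56 := by simp

theorem dm_top : dm (⊤ : Submodule (ZMod 2) V56) = 56 := by rw [dm, finrank_top, dim56]

theorem mul_ap (g h : G) (v : V56) : ρ (g * h) v = ρ g (ρ h v) := by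
  rw [map_mul, Module.End.mul_apply]

theorem mem_conj (c g : G) (v : V56) : ρ c⁻¹ v ∈ kf (ρ g) ↔ v ∈ kf (ρ (c * g * c⁻¹)) := by
  rw [mem_kf, mem_kf, mul_ap, mul_ap]
  refine ⟨fun h => by rw [h, ← mul_ap]; simp, fun h => ?_⟩
  conv_rhs => rw [← h, ← mul_ap]
  simp

theorem f2_conj (c g h : G) : f2 ρ (c * g * c⁻¹) (c * h * c⁻¹) = f2 ρ g h := by
  let e : V56 ≃ₗ[ZMod 2] V56 := LinearEquiv.ofLinearMap (ρ c) (ρ c⁻¹)
    (by rw [← Module.End.mul_eq_comp, ← map_mul]; simp [Module.End.one_eq_id])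
    (by rw [← Module.End.mul_eq_comp, ← map_mul]; simp [Module.End.one_eq_id])
  refine Eq.trans (congrArg dm ?_) (LinearEquiv.finrank_map_eq e _)
  ext v
  rw [Submodule.mem_map_equiv, Submodule.mem_inf, Submodule.mem_inf, ← mem_conj, ← mem_conj]
  rfl

theorem f2_conj' {c g : G} (h : Commute c g) (k : G) : f2 ρ g (c * k * c⁻¹) = f2 ρ g k := by
  rw [← f2_conj c g k, h.eq, mul_inv_cancel_right]

theorem kf_le_pow (g : G) (n : ℕ) : kf (ρ g) ≤ kf (ρ (g ^ n)) := fun v hv => by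
  induction n with
  | zero => simp [mem_kf]
  | succ n ih => rw [mem_kf, pow_succ, mul_ap, mem_kf.1 hv, mem_kf.1 ih]

theorem kf_eq {g h : G} {m n : ℕ} (e : h = g ^ m) (e' : g = h ^ n) : kf (ρ g) = kf (ρ h) :=
  le_antisymm (e ▸ kf_le_pow g m) (e' ▸ kf_le_pow h n)

theorem inv_mem_kf {g h : G} (e : Commute g h) (v : V56) (hv : v ∈ kf (ρ g)) : ρ h v ∈ kf (ρ g) := by
  rw [mem_kf, ← mul_ap, e.eq, mul_ap, mem_kf.1 hv]

theorem pw {g : G} {n : ℕ} (h : g ^ n = 1) : ρ g ^ n = 1 := by rw [← map_pow, h, map_one]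

theorem po {g : G} {n : ℕ} (h : orderOf g = n) : g ^ n = 1 := h ▸ pow_orderOf_eq_one g

theorem part_top (hP : JobPart) {p : ℕ} (hp : p.Prime) (h2 : p ≠ 2) {a b : G} (h : Commute a b)
    (ha : a ^ p = 1) (hb : b ^ p = 1) :
    56 + p * f2 ρ a b = fd ρ a + ∑ i ∈ Finset.range p, fd ρ (a ^ i * b) := by
  have := hP V56 p hp h2 ⊤ (ρ a) (ρ b) (fun _ _ => trivial) (fun _ _ => trivial)
    (fun v _ => by rw [← mul_ap, h.eq, mul_ap]) (fun v _ => by rw [pw ha]; rfl)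
    (fun v _ => by rw [pw hb]; rfl)
  simp only [top_inf_eq, dm_top, ← map_pow, ← map_mul] at this
  exact this

theorem part_kf (hP : JobPart) {p : ℕ} (hp : p.Prime) (h2 : p ≠ 2) {c a b : G} (h1 : Commute c a)
    (h3 : Commute c b) (h : a * b = b * a ∨ a * b = b * a * c) (ha : a ^ p = 1) (hb : b ^ p = 1) :
    ∃ x, fd ρ c + p * x = f2 ρ c a + ∑ i ∈ Finset.range p, f2 ρ c (a ^ i * b) := by
  have := hP V56 p hp h2 (kf (ρ c)) (ρ a) (ρ b) (inv_mem_kf h1) (inv_mem_kf h3)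
    (fun v hv => by
      rcases h with h | h
      · rw [← mul_ap, h, mul_ap]
      · rw [← mul_ap, h, mul_ap, mem_kf.1 hv, mul_ap]) (fun v _ => by rw [pw ha]; rfl)
    (fun v _ => by rw [pw hb]; rfl)
  simp only [← map_pow, ← map_mul] at this
  exact ⟨_, this⟩

theorem f55 (hP : JobPart) (hg : Good ρ) {a b : G} (oa : orderOf a = 5)
    (ob : ∀ i < 5, orderOf (a ^ i * b) = 5) (h : Commute a b) : f2 ρ a b = 8 := by
  have := part_top (ρ := ρ) hP (by norm_num : Nat.Prime 5) (by norm_num) h (po oa)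
    (by simpa using po (ob 0 (by norm_num)))
  rw [Finset.sum_congr rfl fun i hi => hg.five _ (ob i (Finset.mem_range.1 hi)), hg.five _ oa] at this
  simp at this
  omega

theorem inv_eq_pow {g : G} {n : ℕ} (h : g ^ (n + 1) = 1) : g⁻¹ = g ^ n :=
  inv_eq_of_mul_eq_one_left (by rw [← pow_succ, h])

theorem c53 (hP : JobPart) (hF : JobFrob) (hg : Good ρ) {a b s : G} (h : C53 a b s) :
    fd ρ s = 20 := by
  have e := f55 hP hg h.oa h.ob h.ab
  have h1 : (a * b) ^ 5 = 1 := by simpa using po (h.ob 1 (by norm_num))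
  have := hF V56 (ρ a) (ρ b) (ρ s) (pw (po h.oa)) (pw (by simpa using po (h.ob 0 (by norm_num))))
    (pw (po h.os)) (by rw [← map_mul, h.ab.eq, map_mul])
    (by rw [← map_mul, ← map_mul, ← h.sa, inv_mul_cancel_right])
    (by rw [← map_mul, ← map_mul, ← map_pow, ← map_mul, ← inv_eq_pow h1, ← h.sb,
      inv_mul_cancel_right])
  rw [← map_pow, ← map_mul] at this
  change fd ρ a + fd ρ (a ^ 3 * b) ≤ fd ρ s + 2 * f2 ρ a b ∧
    fd ρ s + f2 ρ a b ≤ fd ρ a + fd ρ (a ^ 3 * b) at this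
  rw [e, hg.five _ h.oa, hg.five _ (h.ob 3 (by norm_num))] at this
  have := hg.three s h.os
  omega

theorem par (hR : JobPar) (hg : Good ρ) {z t w : G} (oz : orderOf z = 5) (ot : t ^ 3 = 1)
    (h : Commute z t) (h1 : Commute w z ∨ w * z * w⁻¹ = z⁻¹) (h2 : w * t * w⁻¹ = t⁻¹)
    (h3 : fd ρ t = 20) : f2 ρ z t % 8 = 4 := by
  have := hR V56 (ρ z) (ρ t) (ρ w) (ρ w⁻¹) (pw (po oz)) (pw ot) (by rw [← map_mul, h.eq, map_mul])
    (by rw [← map_mul]; simp)
    (h1.imp (fun h => by rw [← map_mul, h.eq, map_mul]) fun h => by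
      rw [← map_mul, ← map_pow, ← map_mul, ← inv_eq_pow (po oz), ← h, inv_mul_cancel_right])
    (by rw [← map_mul, ← map_pow, ← map_mul, ← inv_eq_pow ot, ← h2, inv_mul_cancel_right])
  change (_ + f2 ρ z t) % 8 = (fd ρ z + fd ρ t) % 8 at this
  rw [dim56, hg.five _ oz, h3] at this
  omega

theorem tri (hT : JobTri) {m t y : G} (h : Commute m t) (ot : t ^ 3 = 1) (oy : y ^ 5 = 1)
    (e : (t * y) ^ 2 = 1) : f2 ρ m y ≤ f2 ρ m t :=
  hT V56 (kf (ρ m)) (ρ t) (ρ y) (inv_mem_kf h) (pw ot) (pw oy) (by rw [← map_mul]; exact pw e)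

theorem c15 (hP : JobPart) (hT : JobTri) (hR : JobPar) (hg : Good ρ) {z t y w : G}
    (h : C15 z t y w) (h3 : fd ρ t = 20) : 12 ≤ f2 ρ z t := by
  have a := f55 hP hg h.oz h.oy h.zy
  have b := tri (ρ := ρ) hT h.zt (po h.ot) (by simpa using po (h.oy 0 (by norm_num))) h.ty
  have c := par hR hg h.oz (po h.ot) h.zt (Or.inl h.wz) h.wt h3
  omega

theorem scott (hS : JobScott) {u x : G} (hu : u ^ 2 = 1) (h : Subgroup.closure {u, x} = ⊤)
    (h1 : 28 < fd ρ x + fd ρ (u * x)) : HasFix ρ := by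
  by_contra hn
  simp only [HasFix, not_or, not_exists, not_and] at hn
  obtain ⟨a, b⟩ := hS V56 (ρ u) (ρ x) ((Group.isUnit u).map ρ) ((Group.isUnit x).map ρ)
  have ind : ∀ p : G → Prop, p 1 → p u → p x → (∀ g k, p g → p k → p (g * k)) →
      (∀ g, p g → p g⁻¹) → ∀ g, p g := fun p h0 h1 h2 h3 h4 g => by
    have hg : g ∈ Subgroup.closure {u, x} := h ▸ Subgroup.mem_top g
    induction hg using Subgroup.closure_induction with
    | mem g hg => rcases hg with rfl | rfl <;> assumption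
    | one => exact h0
    | mul g k _ _ a b => exact h3 g k a b
    | inv g _ a => exact h4 g a
  have a := a (pw hu)
  have b := b (fun v e e' => by
    by_contra h0
    refine hn.1 v h0 (ind _ (by simp) e e' (fun g k a b => by rw [mul_ap, b, a]) fun g a => ?_)
    conv_lhs => rw [← a, ← mul_ap]
    simp) fun f e e' => by
    by_contra h0
    refine hn.2 f h0 (ind (fun g => ∀ v, f (ρ g v) = f v) (by simp) e e'
      (fun g k a b v => by rw [mul_ap, a, b]) fun g a v => ?_)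
    rw [← a, ← mul_ap]
    simp
  rw [← map_mul, dim56] at b
  rw [dim56] at a
  change fd ρ u + fd ρ x + fd ρ (u * x) ≤ 56 at b
  change 56 ≤ 2 * fd ρ u at a
  omega

theorem jobModU (hP : JobPart) (hT : JobTri) (hR : JobPar) (hF : JobFrob) (hS : JobScott) :
    JobModU.{u} := by
  intro G _ ρ hg
  refine ⟨fun ⟨u, x, h1, h2, h3, h4⟩ => scott hS h1 h4 ?_,
    fun ⟨u, x, a, b, s, z, t, y, w, h1, h2, h3, h4, h5, h6, h7⟩ => scott hS h1 h2 ?_⟩
  · rw [hg.five _ h2, hg.five _ h3]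
    norm_num
  · have e := c53 hP hF hg h3
    have := (c15 hP hT hR hg h4 ((fd_conj ρ h6).trans e)).trans (f2_le_mul z t)
    rw [fd_conj ρ h5, fd_conj ρ h7, e]
    omega

theorem jobModL (hP : JobPart) (hR : JobPar) (hF : JobFrob) : JobModL.{u} := by
  rintro G _ ρ hg ⟨a, b, s, t, w, h, ta, tb, ts, hts, wa, wb, wt⟩
  have e : fd ρ t = 20 := (fd_conj ρ hts).trans (c53 hP hF hg h)
  have ot : t ^ 3 = 1 := by
    obtain ⟨c, hc⟩ := isConj_iff.1 hts.symm
    rw [← hc, conj_pow, po h.os]; simp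
  have oa := po h.oa
  have ob : b ^ 5 = 1 := by simpa using po (h.ob 0 (by norm_num))
  have ab := h.ab
  have nf : ∀ i j : ℕ, (a ^ i * b) ^ j = a ^ (i * j) * b ^ j := fun i j => by
    rw [(ab.pow_left i).mul_pow, pow_mul]
  have iab : (a * b)⁻¹ = a ^ 4 * b ^ 4 := by
    rw [mul_inv_rev, inv_eq_pow oa, inv_eq_pow ob, (ab.pow_pow 4 4).eq]
  have rd : ∀ i j : ℕ, a ^ (5 * i + j) = a ^ j := fun i j => by rw [pow_add, pow_mul, oa]; simp
  have rb : ∀ i j : ℕ, b ^ (5 * i + j) = b ^ j := fun i j => by rw [pow_add, pow_mul, ob]; simp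
  have cs : ∀ i : ℕ, s * (a ^ i * b) * s⁻¹ = a ^ 4 * b ^ (i + 4) := fun i => by
    rw [← conj_mul, ← conj_pow, h.sa, h.sb, iab, ← mul_assoc, ← (ab.pow_pow 4 i).eq, mul_assoc,
      ← pow_add]
  have k1 := par hR hg h.oa ot ta.symm (Or.inl wa) wt e
  have k2 := par hR hg (h.ob 3 (by norm_num)) ot ((ta.pow_right 3).mul_right tb).symm
    (Or.inr (by
      rw [← conj_mul, (wa.pow_right 3).eq, mul_inv_cancel_right, wb, iab,
        inv_eq_pow (po (h.ob 3 (by norm_num))), nf, ← mul_assoc, ← pow_add, rd 1 2, rd 2 2])) wt e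
  have l1 := f2_le (ρ := ρ) a t
  have l2 := f2_le (ρ := ρ) (a ^ 3 * b) t
  rw [hg.five _ h.oa] at l1
  rw [hg.five _ (h.ob 3 (by norm_num))] at l2
  rw [f2_comm] at k1 k2 l1 l2
  obtain ⟨x, hx⟩ := part_kf (ρ := ρ) hP (by norm_num : Nat.Prime 5) (by norm_num) ta tb
    (Or.inl ab.eq) oa ob
  have m0 : f2 ρ t (a ^ 0 * b) = f2 ρ t a := by rw [← f2_conj' ts.symm a, h.sa]; simp
  have m1 : f2 ρ t (a ^ 1 * b) = f2 ρ t (a ^ 0 * b) := by
    rw [← f2_conj' ts.symm (a ^ 0 * b), cs, f2, f2, kf_eq (g := a ^ 1 * b)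
      (h := a ^ 4 * b ^ (0 + 4)) (m := 4) (n := 4) (nf 1 4).symm (by rw [zero_add, (ab.pow_pow 4 4).mul_pow, ← pow_mul, ← pow_mul, rd 3 1, rb 3 1,
        pow_one b])]
  have m2 : f2 ρ t (a ^ 2 * b) = f2 ρ t (a ^ 3 * b) := by
    rw [← f2_conj' ts.symm (a ^ 3 * b), cs, rb 1 2, f2, f2, kf_eq (g := a ^ 2 * b)
      (h := a ^ 4 * b ^ 2) (m := 2) (n := 3) (nf 2 2).symm (by rw [(ab.pow_pow 4 2).mul_pow, ← pow_mul, ← pow_mul, rd 2 2, rb 1 1,
        pow_one b])]
  have m4 : f2 ρ t (a ^ 4 * b) = f2 ρ t (a ^ 2 * b) := by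
    rw [← f2_conj' ts.symm (a ^ 2 * b), cs, rb 1 1, pow_one]
  simp only [Finset.sum_range_succ, Finset.sum_range_zero, m4, m2, m1, m0, e] at hx
  omega

theorem jobModG (hP : JobPart) (hT : JobTri) (hR : JobPar) : JobModG.{u} := by
  rintro G _ ρ hg ⟨a, b, c, y, z, w, h, oc, e, ca, cb, h1, h2, h3, cy, cz⟩
  have key : ∀ x g : G, IsConj x a → Commute c x → Commute c g → g * x * g⁻¹ = c * x →
      56 + 3 * f2 ρ c x = fd ρ c + 3 * fd ρ a := by
    intro x g hx cx cg eg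
    have ox : x ^ 3 = 1 := by
      obtain ⟨k, hk⟩ := isConj_iff.1 hx.symm
      rw [← hk, conj_pow, po h.ot]; simp
    have := part_top (ρ := ρ) hP Nat.prime_three (by norm_num) cx (po oc) ox
    have cj : ∀ i : ℕ, fd ρ (c ^ i * x) = fd ρ a := fun i => by
      induction i with
      | zero => simpa using fd_conj ρ hx
      | succ i ih =>
        rw [← ih]
        refine fd_conj ρ (isConj_iff.2 ⟨g, ?_⟩).symm
        rw [← conj_mul, eg, ← (cg.pow_left i).eq, mul_inv_cancel_right, pow_succ, mul_assoc]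
    simpa [cj] using this
  have eb : a * b * a⁻¹ = c * b := by rw [e, mul_assoc b, ← ca.eq, cb.eq]; group
  have k0 := key a b⁻¹ (IsConj.refl a) ca cb.inv_right (by rw [inv_inv, mul_assoc, e, ca.eq]; group)
  have k1 := key b a h1 cb ca eb
  have k2 := key (a * b) a h2 (ca.mul_right cb) ca (by
    rw [← conj_mul, eb, mul_inv_cancel_right, ← mul_assoc, ← ca.eq, mul_assoc])
  have k3 := key (a ^ 2 * b) a h3 ((ca.pow_right 2).mul_right cb) ca (by
    rw [← conj_mul, eb, ← mul_assoc c, (ca.pow_right 2).eq]; group)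
  have ob : b ^ 3 = 1 := by
    obtain ⟨k, hk⟩ := isConj_iff.1 h1.symm
    rw [← hk, conj_pow, po h.ot]; simp
  obtain ⟨x, hx⟩ := part_kf (ρ := ρ) hP Nat.prime_three (by norm_num) ca cb (Or.inr e) (po h.ot) ob
  simp only [Finset.sum_range_succ, Finset.sum_range_zero, pow_zero, pow_one, one_mul] at hx
  have t1 := tri (ρ := ρ) hT (Commute.one_left c) (po oc) (po h.oz) cz
  have one : ∀ g : G, f2 ρ 1 g = fd ρ g := fun g => by
    rw [f2, show kf (ρ 1) = ⊤ from eq_top_iff.2 fun v _ => by simp [mem_kf], top_inf_eq]; rfl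
  rw [one, one, hg.five _ h.oz] at t1
  have t2 := tri (ρ := ρ) hT ca.symm (po oc) (po h.oz) cz
  have α := hg.three c oc
  have β := hg.three a h.ot
  have oy : orderOf y = 5 := by simpa using h.oy 0 (by norm_num)
  by_cases h4 : fd ρ a = 20
  · have := c15 hP hT hR hg h h4
    rw [f2_comm a z, f2_comm a c] at t2
    omega
  have h5 : fd ρ c = 20 := by omega
  have h6 : kf (ρ c) ⊓ kf (ρ a) = kf (ρ c) :=
    Submodule.eq_of_le_of_finrank_le inf_le_left (show fd ρ c ≤ f2 ρ c a by omega)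
  have h7 : ∀ v ∈ kf (ρ c), ρ a v = v := fun v hv => mem_kf.1 (h6.ge hv).2
  have h8 : kf (ρ c) ≤ kf (ρ (y ^ 2)) := fun v hv => by
    have a1 := inv_mem_kf cy v hv
    have a2 : ρ ((a * y) ^ 2) v = v := by rw [h.ty]; simp
    rw [pow_two, mul_ap, mul_ap, mul_ap, h7 _ a1, h7 _ (inv_mem_kf cy _ a1)] at a2
    rw [mem_kf, pow_two, mul_ap, a2]
  rw [← kf_eq (g := y) (m := 2) (n := 3) rfl (by
    rw [← pow_mul, show 2 * 3 = 5 + 1 from rfl, pow_succ, po oy, one_mul])] at h8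
  have h9 : fd ρ c ≤ fd ρ y := Submodule.finrank_mono h8
  rw [hg.five _ oy] at h9
  omega

end H61.E7M
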