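/- Tower O84, slot SYL: Sylow's theorem in `N(J)/J`. -/
import Cfsg.Agent.H36.O84Spec

set_option autoImplicit false

namespace H61.O84

open H36.O84 Subgroup

theorem jobSYL : JobSYL := by
  intro Γ _ _ J p k m hp hm h
  have := Fact.mk hp
  set N := normalizer (J : Set Γ) with hN
  have hJN : J ≤ N := le_normalizer
  let π := QuotientGroup.mk' (J.subgroupOf N)
  have hker : π.ker = J.subgroupOf N := QuotientGroup.ker_mk' _
  have hQ : Nat.card (N ⧸ J.subgroupOf N) = p ^ k * m := h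
  have hm0 : m ≠ 0 := fun h0 => hm (h0 ▸ dvd_zero p)
  have hf : (Nat.card (N ⧸ J.subgroupOf N)).factorization p = k := by
    rw [hQ, Nat.factorization_mul (pow_ne_zero k hp.ne_zero) hm0, Finsupp.add_apply,
      Nat.factorization_eq_zero_of_not_dvd hm, hp.factorization_pow, Finsupp.single_eq_same,
      add_zero]
  have hc : ∀ H : Subgroup Γ, H ≤ N → Nat.card ((H.subgroupOf N).map π) = J.relIndex H :=
    fun H hH => by rw [← relIndex_ker, hker, relIndex_subgroupOf hH]
  have hmem : ∀ H : Subgroup Γ, J ≤ H → ∀ x : N, π x ∈ (H.subgroupOf N).map π ↔ (x : Γ) ∈ H :=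
    fun H hH x => by
      rw [← mem_comap, comap_map_eq_self (by rw [hker]; exact fun y hy => hH hy), mem_subgroupOf]
  constructor
  · obtain ⟨P⟩ : Nonempty (Sylow p (N ⧸ J.subgroupOf N)) := inferInstance
    have hle : ((P : Subgroup _).comap π).map N.subtype ≤ N := map_subtype_le _
    refine ⟨((P : Subgroup _).comap π).map N.subtype, fun x hx => ⟨⟨x, hJN hx⟩, ?_, rfl⟩, hle, ?_⟩
    · have : π ⟨x, hJN hx⟩ = 1 := by rw [← MonoidHom.mem_ker, hker]; exact hx
      change π _ ∈ (P : Subgroup _)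
      rw [this]; exact one_mem _
    · rw [← hc _ hle, ← comap_subtype (map N.subtype _), comap_map_eq_self_of_injective N.subtype_injective,
        map_comap_eq_self_of_surjective (QuotientGroup.mk'_surjective _), P.card_eq_multiplicity,
        hf]
  · rintro H H' ⟨h1, h2, h3⟩ ⟨h1', h2', h3'⟩
    let P := Sylow.ofCard ((H.subgroupOf N).map π) (by rw [hc H h2, h3, hf])
    let P' := Sylow.ofCard ((H'.subgroupOf N).map π) (by rw [hc H' h2', h3', hf])
    obtain ⟨q, hq⟩ := MulAction.exists_smul_eq (N ⧸ J.subgroupOf N) P P'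
    obtain ⟨g, rfl⟩ := QuotientGroup.mk'_surjective _ q
    have key : ∀ x : N, (x : Γ) ∈ H ↔ (g : Γ) * x * (g : Γ)⁻¹ ∈ H' := fun x => by
      have e : π (g * x * g⁻¹) ∈ P' ↔ π x ∈ P := by
        rw [← hq, map_mul, map_mul, map_inv]
        exact Subgroup.smul_mem_pointwise_smul_iff (a := MulAut.conj (π g)) (S := P.toSubgroup)
          (x := π x)
      exact (hmem H h1 x).symm.trans (e.symm.trans (hmem H' h1' (g * x * g⁻¹)))
    refine ⟨g, le_antisymm ?_ fun y hy => ?_⟩
    · rintro _ ⟨x, hx, rfl⟩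
      exact (key ⟨x, h2 hx⟩).1 hx
    · refine ⟨(g : Γ)⁻¹ * y * g, (key (g⁻¹ * ⟨y, h2' hy⟩ * g)).2 ?_, by simp [mul_assoc]⟩
      simpa [mul_assoc] using hy

end H61.O84
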