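import Cfsg.Agent.H42.SimXBSpec

/-! Tower SIM, chapter XA part two, job NQ. -/

set_option autoImplicit false

namespace H61.SimNQ

open Subgroup Cfsg H98 Matrix H0.Sim H42.SX
open scoped commutatorElement

theorem qs_congr {A B : Type*} [Group A] [Group B] (e : A ≃* B) (h : IsQuasisimple A) :
    IsQuasisimple B := by
  obtain ⟨h1, h2⟩ := h
  refine ⟨Group.IsPerfect.ofSurjective (f := e.toMonoidHom) e.surjective, ?_⟩
  have he : (center A).map (e : A →* B) = center B := by
    ext y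
    obtain ⟨x, rfl⟩ := e.surjective y
    constructor
    · rintro ⟨z, hz, hz'⟩
      rw [← hz', mem_center_iff]
      intro w
      obtain ⟨w, rfl⟩ := e.surjective w
      simpa using congrArg e (mem_center_iff.1 hz w)
    · intro hx
      refine ⟨x, mem_center_iff.2 fun w => e.injective ?_, rfl⟩
      simpa using mem_center_iff.1 hx (e w)
  exact (QuotientGroup.congr _ _ e he).symm.isSimpleGroup

theorem jobNQ : JobNQ := by
  intro n F K _ _ _ _ _ ι u q p H Q A b k hA X _ ψ hψ hr hq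
  have cA : ∀ x : Mt n F, x ∈ cn ι ↔ ∀ a ∈ A, a * x = x * a := fun x => by
    rw [Subring.mem_centralizer_iff, hA]; rfl
  have h1 : ∀ h ∈ H, ∀ x ∈ ψ.range, h * x * h⁻¹ ∈ ψ.range := fun h hh x hx => by
    obtain ⟨x1, x2⟩ := (hr x).1 hx
    refine (hr _).2 ⟨mul_mem (mul_mem (k.HG hh) x1) (inv_mem (k.HG hh)), (cA _).2 fun a ha => ?_⟩
    have e := (cA _).1 x2 _ (k.st h⁻¹ (inv_mem hh) a ha)
    rw [inv_inv] at e
    have e1 : (h : Mt n F) * ((h⁻¹ : GL (Fin n) F) : Mt n F) = 1 := h.mul_inv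
    rw [Units.val_mul, Units.val_mul]
    calc a * ((h : Mt n F) * x * ((h⁻¹ : GL (Fin n) F) : Mt n F))
        = (h : Mt n F) * (((h⁻¹ : GL (Fin n) F) : Mt n F) * a * h * x) *
          ((h⁻¹ : GL (Fin n) F) : Mt n F) := by
          simp only [← mul_assoc, e1, one_mul]
      _ = (h : Mt n F) * x * ((h⁻¹ : GL (Fin n) F) : Mt n F) * a := by
          rw [e]
          simp only [mul_assoc, e1, mul_one]
  have h2 : H ≤ normalizer (ψ.range : Set (GL (Fin n) F)) := fun h hh =>
    mem_normalizer_iff.2 fun x => ⟨h1 h hh x, fun hx => by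
      have := h1 h⁻¹ (inv_mem hh) _ hx
      simpa [mul_assoc] using this⟩
  have h3 : (commutator X).map ψ = ⁅ψ.range, ψ.range⁆ := by
    rw [commutator_def, map_commutator, MonoidHom.range_eq_map]
  have h4 : ⁅ψ.range, ψ.range⁆ ≤ H := by
    have s0 : ⁅ψ.range, ψ.range⁆ ≤ ψ.range ⊓
        (Matrix.GeneralLinearGroup.det : GL (Fin n) F →* Fˣ).ker :=
      commutator_le.2 fun x hx y hy => ⟨by
        rw [commutatorElement_def]
        exact ψ.range.mul_mem (ψ.range.mul_mem (ψ.range.mul_mem hx hy) (ψ.range.inv_mem hx))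
          (ψ.range.inv_mem hy), by
        change _ ∈ MonoidHom.ker _
        rw [MonoidHom.mem_ker, map_commutatorElement, commutatorElement_eq_one_iff_mul_comm,
          mul_comm]⟩
    intro s hs
    obtain ⟨s1, s2⟩ := s0 hs
    obtain ⟨x1, x2⟩ := (hr s).1 s1
    refine k.mp s ⟨x1, s2⟩ fun m hm => ?_
    rw [← (cA _).1 x2 m hm, mul_assoc, s.mul_inv, mul_one]
    exact hm
  refine k.nc _ h4 ?_ (k.QH.trans (le_normalizer_commutator h2 h2))
  rw [← h3]
  exact qs_congr ((commutator X).equivMapOfInjective ψ hψ) hq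

end H61.SimNQ
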