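import Cfsg.Agent.H40.E7Spec

/-! Job W of the tower E7S: weight multiplicities of torus elements of order three and five. -/

set_option autoImplicit false

namespace H61.E7W

open Finset

/-- Packing in fields of width eight. -/
def pk (f : ℕ → ℕ) (n : ℕ) : ℕ := ∑ j ∈ range n, f j * 256 ^ j

theorem pk_succ (f : ℕ → ℕ) (n : ℕ) : pk f (n + 1) = f 0 + 256 * pk (fun j => f (j + 1)) n := by
  simp only [pk, sum_range_succ', mul_sum, pow_succ]
  rw [add_comm]
  congr 1
  · simp
  · exact sum_congr rfl fun _ _ => by ring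

/-- The histogram of the residues of the fields. -/
noncomputable def hist (p n : ℕ) : ℕ → ℕ :=
  Nat.rec (fun _ => 0) (fun _ ih S => Nat.add (Nat.shiftLeft 1 (Nat.mul 6 (Nat.mod (Nat.mod S 256) p)))
    (ih (Nat.div S 256))) n

theorem hist_pk (p n : ℕ) : ∀ f : ℕ → ℕ, (∀ j, f j < 256) →
    hist p n (pk f n) = ∑ j ∈ range n, 64 ^ (f j % p) := by
  induction n with
  | zero => intro f _; rfl
  | succ n ih =>
    intro f hf
    have h := hf 0
    change 1 <<< (6 * (pk f (n + 1) % 256 % p)) + hist p n (pk f (n + 1) / 256) = _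
    rw [pk_succ, show (f 0 + 256 * pk (fun j => f (j + 1)) n) % 256 = f 0 by omega,
      show (f 0 + 256 * pk (fun j => f (j + 1)) n) / 256 = pk (fun j => f (j + 1)) n by omega,
      ih _ fun j => hf _, sum_range_succ', add_comm, Nat.shiftLeft_eq, one_mul, pow_mul]
    rfl

/-- Bounded quantifier. -/
noncomputable def al (f : ℕ → Bool) (n : ℕ) : Bool := Nat.rec true (fun a ih => and (f a) ih) n

theorem al_spec {f : ℕ → Bool} {n : ℕ} (h : al f n = true) : ∀ a < n, f a = true := by
  induction n with
  | zero => intro a ha; omega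
  | succ n ih =>
    intro a ha
    have h' : (f n && al f n) = true := h
    rw [Bool.and_eq_true] at h'
    rcases Nat.lt_succ_iff_lt_or_eq.1 ha with h1 | rfl
    exacts [ih h'.2 a h1, h'.1]

/-- All linear combinations. -/
noncomputable def go (p : ℕ) (W : ℕ → ℕ) (P : ℕ → Bool) (n : ℕ) : ℕ → Bool :=
  Nat.rec P (fun k ih S => al (fun a => ih (Nat.add S (Nat.mul a (W k)))) p) n

theorem go_spec {p : ℕ} {W : ℕ → ℕ} {P : ℕ → Bool} (a : ℕ → ℕ) (ha : ∀ k, a k < p) (n : ℕ) :
    ∀ S, go p W P n S = true → P (S + ∑ k ∈ range n, a k * W k) = true := by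
  induction n with
  | zero => intro S h; exact h
  | succ n ih =>
    intro S h
    have := ih _ (al_spec h (a n) (ha n))
    rw [sum_range_succ, add_comm _ (a n * W n), ← add_assoc]
    exact this

/-- The shifted weights. -/
def uu (k j : ℕ) : ℕ := H65.fld 2 3 0x9554955495549554a554a55855825859856855855655615905891864859056459158858614585646621918664592165159654625119464912245191949492548954659518946491948654695529550954495149454a1549558158158558558554555 (7 * j + k)

theorem uu_le (k j : ℕ) : uu k j ≤ 3 := Nat.and_le_right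

/-- The packed weights. -/
noncomputable def W (c k : ℕ) : ℕ := Nat.add (Nat.mul c
  0x101010101010101010101010101010101010101010101010101010101010101010101010101010101010101010101010101010101010101)
  (Nat.rec 0x101010101020102020202020000000000000101010101010101010101010101010101010101020202020202000000000001000101010101 (fun k _ =>
   Nat.rec 0x101010102020000010101010200010101010101010102020202020200000000000001010101010101010200010101010202000001010101 (fun k _ =>
   Nat.rec 0x101010102000200010101010101020202020000000001010101010101010101010102020202000000000101010101010200020001010101 (fun k _ =>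
   Nat.rec 0x101010200010102000101010102000101010102020200000001010101010102020200000001010101020001010101020001010200010101 (fun k _ =>
   Nat.rec 0x101020001010101020001010101020001010200010101020200000101020200000101010200010102000101010102000101010102000101 (fun k _ =>
   Nat.rec 0x102000101010101010200010101010200010102000102000101020002000101020001020001010200010101010200010101010101020001 (fun _ _ =>
   0x200010101010101010102000101010102000101020001020002000101020002000102000101020001010101020001010101010101010200) k) k) k) k) k) k)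

theorem W_eq : ∀ c < 5, ∀ k < 7, W c k = pk (fun j => uu k j + c) 56 := by decide +kernel

/-- The test for order three. -/
noncomputable def P3 (S : ℕ) : Bool := Nat.testBit 0x100000100104004 (Nat.mod (hist 3 56 S) 64)

/-- The test for order five. -/
noncomputable def Q5 (T : ℕ) : Bool := or (Nat.testBit 0x100000000010000 (Nat.mod T 64))
  (not (Nat.beq (Nat.mod (Nat.div T 64) 64) (Nat.mod (Nat.div T 4096) 64)))

noncomputable def P5 (S : ℕ) : Bool := Q5 (hist 5 56 S)

theorem go3 : go 3 (W 2) P3 7 0 = true := by decide +kernel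
theorem go50 : go 5 (W 4) P5 6 (Nat.add 0 (Nat.mul 0 (W 4 6))) = true := by decide +kernel
theorem go51 : go 5 (W 4) P5 6 (Nat.add 0 (Nat.mul 1 (W 4 6))) = true := by decide +kernel
theorem go52 : go 5 (W 4) P5 6 (Nat.add 0 (Nat.mul 2 (W 4 6))) = true := by decide +kernel
theorem go53 : go 5 (W 4) P5 6 (Nat.add 0 (Nat.mul 3 (W 4 6))) = true := by decide +kernel
theorem go54 : go 5 (W 4) P5 6 (Nat.add 0 (Nat.mul 4 (W 4 6))) = true := by decide +kernel

theorem al_intro {f : ℕ → Bool} {n : ℕ} (h : ∀ a < n, f a = true) : al f n = true := by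
  induction n with
  | zero => rfl
  | succ n ih =>
    change (f n && al f n) = true
    rw [h n (Nat.lt_succ_self n), ih fun a ha => h a (Nat.lt_succ_of_lt ha)]
    rfl

theorem go_succ {p : ℕ} {W : ℕ → ℕ} {P : ℕ → Bool} {n S : ℕ}
    (h : ∀ a < p, go p W P n (Nat.add S (Nat.mul a (W n))) = true) : go p W P (n + 1) S = true :=
  al_intro h

theorem go5 : go 5 (W 4) P5 7 0 = true := go_succ fun a ha => by
  interval_cases a
  exacts [go50, go51, go52, go53, go54]

/-- The number of weights with a given value. -/
noncomputable def cnt {p : ℕ} (a : Fin 7 → ZMod p) (r : ZMod p) : ℕ :=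
  (univ.filter fun j : Fin 56 => ∑ k, a k * (H26.E7.wt k j : ZMod p) = r).card

theorem cnt_le {p : ℕ} (a : Fin 7 → ZMod p) (r : ZMod p) : cnt a r ≤ 56 :=
  (card_filter_le _ _).trans (by simp)

theorem main {c : ℕ} (hc : c < 5) {P : ℕ → Bool} (h : go (c + 1) (W c) P 7 0 = true)
    (a : Fin 7 → ZMod (c + 1)) :
    ∃ S, P S = true ∧ hist (c + 1) 56 S = ∑ r ∈ range (c + 1), 64 ^ r * cnt a r := by
  let b : ℕ → ℕ := fun k => if h : k < 7 then (a ⟨k, h⟩).val else 0
  have hb : ∀ k, b k < c + 1 := fun k => by
    simp only [b]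
    split_ifs
    exacts [ZMod.val_lt _, Nat.succ_pos _]
  let f : ℕ → ℕ := fun j => ∑ k ∈ range 7, b k * (uu k j + c)
  have hf : ∀ j, f j < 256 := fun j => by
    have : f j ≤ ∑ k ∈ range 7, 4 * 7 := sum_le_sum fun k _ =>
      Nat.mul_le_mul (by have := hb k; omega) (by have := uu_le k j; omega)
    simp at this
    omega
  have e : 0 + ∑ k ∈ range 7, b k * W c k = pk f 56 := by
    rw [zero_add, sum_congr rfl fun k hk => by rw [W_eq c hc k (mem_range.1 hk)]]
    simp only [pk, f, mul_sum, sum_mul]
    rw [sum_comm]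
    exact sum_congr rfl fun _ _ => sum_congr rfl fun _ _ => by ring
  have e2 : ∀ j : Fin 56, ∑ k, a k * (H26.E7.wt k j : ZMod (c + 1)) = (f j : ℕ) := fun j => by
    simp only [f, Nat.cast_sum, ← Fin.sum_univ_eq_sum_range (fun k => ((b k * (uu k j + c) : ℕ) :
      ZMod (c + 1))) 7]
    refine sum_congr rfl fun k _ => ?_
    have h1 : ((c : ℕ) : ZMod (c + 1)) = -1 :=
      eq_neg_of_add_eq_zero_left (by exact_mod_cast ZMod.natCast_self (c + 1))
    have h2 : H26.E7.wt k j = (uu k j : ℤ) - 1 := Int.subNatNat_eq_coe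
    rw [h2]
    simp only [b, k.2, dif_pos, Nat.cast_mul, Nat.cast_add, h1, ZMod.natCast_zmod_val,
      Int.cast_natCast, Int.cast_one, sub_eq_add_neg, Int.cast_add, Int.cast_neg]
  refine ⟨_, go_spec b hb 7 0 h, ?_⟩
  rw [e, hist_pk _ _ _ hf, ← Fin.sum_univ_eq_sum_range (fun j => 64 ^ (f j % (c + 1))) 56]
  simp only [cnt, e2, card_filter, mul_sum]
  rw [sum_comm]
  refine sum_congr rfl fun j _ => ?_
  rw [sum_eq_single (f j % (c + 1))]
  · simp
  · intro r hr hne
    rw [if_neg, mul_zero]
    intro h3
    rw [ZMod.natCast_eq_natCast_iff', Nat.mod_eq_of_lt (mem_range.1 hr)] at h3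
    exact hne h3.symm
  · intro h3
    exact absurd (mem_range.2 (Nat.mod_lt _ (Nat.succ_pos _))) h3

theorem jobW : H40.E7S.JobW := by
  refine ⟨fun a => ?_, fun a ha => ?_⟩
  · obtain ⟨S, h1, h2⟩ := main (c := 2) (by norm_num) go3 a
    change cnt a 0 ∈ _
    simp only [sum_range_succ, sum_range_zero, Nat.cast_zero] at h2
    have h3 := cnt_le a 0
    have h4 : hist 3 56 S % 64 = cnt a 0 := by rw [h2]; omega
    have h5 : Nat.testBit 0x100000100104004 (cnt a 0) = true := h4 ▸ h1
    generalize cnt a 0 = n at h3 h5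
    revert n
    decide
  · obtain ⟨S, h1, h2⟩ := main (c := 4) (by norm_num) go5 a
    change cnt a 0 ∈ _
    change cnt a 1 = cnt a 2 at ha
    simp only [sum_range_succ, sum_range_zero, Nat.cast_zero, Nat.cast_one, Nat.cast_ofNat] at h2
    have h3 := cnt_le a 0
    have h6 := cnt_le a 2
    have h4 : hist 5 56 S % 64 = cnt a 0 := by rw [h2]; omega
    have h8 : hist 5 56 S / 64 = cnt a 1 + 64 * (cnt a 2 + 64 * cnt a 3 + 4096 * cnt a 4) := by
      rw [h2]; omega
    have h9 : hist 5 56 S / 4096 = cnt a 2 + 64 * (cnt a 3 + 64 * cnt a 4) := by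
      rw [h2]; omega
    have h7 : hist 5 56 S / 64 % 64 = hist 5 56 S / 4096 % 64 := by rw [h8, h9]; omega
    have h5 : Nat.testBit 0x100000000010000 (cnt a 0) = true := by
      have : (Nat.testBit 0x100000000010000 (hist 5 56 S % 64) ||
        !(Nat.beq (hist 5 56 S / 64 % 64) (hist 5 56 S / 4096 % 64))) = true := h1
      rw [h4, h7, Nat.beq_refl] at this
      simpa using this
    generalize cnt a 0 = n at h3 h5
    revert n
    decide

end H61.E7W
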