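import Cfsg.Agent.H56.OreKit

/-! ORE1 tower, job Det: a polynomial in `N` with non-square determinant. -/

set_option autoImplicit false

namespace H61.Ore

open Module Polynomial H56.Ore

universe u

theorem det_aeval_mat {K n : Type*} [Field K] [IsAlgClosed K] [Fintype n] [DecidableEq n]
    (A : Matrix n n K) (q : K[X]) : (aeval A q).det = (A.charpoly.roots.map q.eval).prod := by
  have hc : A.charpoly.roots.card = Fintype.card n := by
    rw [IsAlgClosed.card_roots_eq_natDegree, A.charpoly_natDegree_eq_dim]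
  refine Submonoid.closure_induction (motive := fun q _ => (aeval A q).det =
    (A.charpoly.roots.map q.eval).prod) ?_ (by simp) (fun p q _ _ hp hq => ?_) (IsAlgClosed.splits q)
  · rintro _ (⟨a, rfl⟩ | ⟨a, rfl⟩)
    · simp [Algebra.algebraMap_eq_smul_one, hc]
    · have h := (IsAlgClosed.splits A.charpoly).eval_eq_prod_roots_of_monic A.charpoly_monic (-a)
      rw [Matrix.eval_charpoly, show Matrix.scalar n (-a) - A = -aeval A (X + C a) by
        simp [Matrix.algebraMap_eq_diagonal, sub_eq_add_neg], Matrix.det_neg,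
        show (fun x => -a - x) = Neg.neg ∘ (X + C a).eval by ext; simp; ring, ← Multiset.map_map,
        Multiset.prod_map_neg, Multiset.card_map, hc] at h
      exact mul_left_cancel₀ (pow_ne_zero _ (neg_ne_zero.2 one_ne_zero)) h
  · simp only [map_mul, Matrix.det_mul, hp, hq, eval_mul, Multiset.prod_map_mul]

variable {F V : Type*} [Field F] [AddCommGroup V] [Module F V] [FiniteDimensional F V]

theorem det_aeval (K : Type*) [Field K] [IsAlgClosed K] [Algebra F K] (T : End F V) (p : F[X]) :
    algebraMap F K (LinearMap.det (aeval T p)) =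
      ((T.charpoly.map (algebraMap F K)).roots.map (aeval · p)).prod := by
  classical
  let b := Module.Free.chooseBasis F V
  rw [← LinearMap.det_toMatrix b, RingHom.map_det, ← LinearMap.charpoly_toMatrix T b,
    ← Matrix.charpoly_map]
  simp only [← eval_map_algebraMap p (B := K)]
  rw [← det_aeval_mat, aeval_map_algebraMap]
  exact congrArg _ ((aeval_algHom_apply ((Algebra.ofId F K).mapMatrix.comp
    (LinearMap.toMatrixAlgEquiv b).toAlgHom) T p).symm)

theorem charpoly_eq {T : End F V} {g : F[X]} (hg : g.Monic) {v : V}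
    (h1 : ∀ p : F[X], aeval T p v = 0 ↔ g ∣ p) (h2 : ∀ x, ∃ p : F[X], aeval T p v = x) :
    T.charpoly = g := by
  refine eq_of_monic_of_dvd_of_natDegree_le hg T.charpoly_monic
    ((h1 _).1 (by rw [T.aeval_self_charpoly]; rfl)) ?_
  rw [T.charpoly_natDegree, ← finrank_fin_fun (n := g.natDegree) F,
    ← (degreeLTEquiv F g.natDegree).finrank_eq]
  have := (degreeLTEquiv F g.natDegree).symm.finiteDimensional
  refine LinearMap.finrank_le_finrank_of_surjective (f := (LinearMap.applyₗ v ∘ₗ
    (aeval T).toLinearMap) ∘ₗ (degreeLT F g.natDegree).subtype) fun x => ?_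
  obtain ⟨p, rfl⟩ := h2 x
  refine ⟨⟨p %ₘ g, mem_degreeLT.2 (degree_eq_natDegree hg.ne_zero ▸ degree_modByMonic_lt p hg)⟩, ?_⟩
  change aeval T (p %ₘ g) v = _
  rw [← sub_eq_zero, ← LinearMap.sub_apply, ← map_sub, h1, modByMonic_eq_sub_mul_div]
  simp

theorem jobDet : JobDet.{u} := by
  intro F V _ _ _ _ _ N f k v h2 ⟨hf, hm, h0, _, h1, h3⟩ hk
  have hm' : (expand F 2 f).Monic := hm.expand (by norm_num)
  have sep : (expand F 2 f).Separable := by
    rw [separable_def, derivative_expand]
    refine IsCoprime.mul_right (IsCoprime.map (PerfectField.separable_of_irreducible hf)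
      (expand F 2).toRingHom)
      (IsCoprime.mul_right ?_ ?_)
    · exact ⟨0, C (2 : F)⁻¹, by rw [zero_mul, zero_add, ← C_eq_natCast, ← C_mul]; simp [h2]⟩
    · rw [show 2 - 1 = 1 from rfl, pow_one]
      refine ((irreducible_X.coprime_iff_not_dvd).2 ?_).symm
      rwa [X_dvd_iff, coeff_expand (by norm_num), if_pos (dvd_zero _)]
  obtain ⟨e, em, ei, h, he⟩ := exists_monic_irreducible_factor (expand F 2 f) fun hu => hf.not_isUnit
    (by rw [hm.isUnit_iff, ← (expand_injective (R := F) two_pos).eq_iff, map_one]; exact hm'.isUnit_iff.1 hu)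
  obtain ⟨a, b, hab⟩ := (he ▸ sep).isCoprime
  have := Fact.mk ei
  have := (AdjoinRoot.powerBasis ei.ne_zero).finite
  have := Module.finite_of_finite F (M := AdjoinRoot e)
  obtain ⟨c, hc⟩ := FiniteField.exists_nonsquare (F := F) fun c => h2 (by
    have := ringChar.of_eq c; exact CharTwo.two_eq_zero)
  obtain ⟨α, rfl⟩ := FiniteField.norm_surjective F (AdjoinRoot e) c
  obtain ⟨p, rfl⟩ := AdjoinRoot.mk_surjective α
  have l1 : ∀ q : F[X], aeval (Algebra.lmul F (AdjoinRoot e) (AdjoinRoot.root e)) q =
      Algebra.lmul F _ (AdjoinRoot.mk e q) := fun q => by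
    rw [aeval_algHom_apply, AdjoinRoot.aeval_eq]
  have l2 := det_aeval (AlgebraicClosure F) (Algebra.lmul F (AdjoinRoot e) (AdjoinRoot.root e)) p
  rw [charpoly_eq em (v := 1) (fun q => by rw [l1, ← AdjoinRoot.mk_eq_zero]; simp) (fun x => by
    obtain ⟨q, rfl⟩ := AdjoinRoot.mk_surjective x
    exact ⟨q, by rw [l1]; simp⟩), l1] at l2
  have l3 := det_aeval (AlgebraicClosure F) N (p * (b * h) + a * e)
  have h0' : (e * h).map (algebraMap F (AlgebraicClosure F)) ≠ 0 := map_ne_zero (he ▸ hm'.ne_zero)
  rw [charpoly_eq (hm'.pow k) h1 h3, he, Polynomial.map_pow, roots_pow, Multiset.map_nsmul,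
    Multiset.prod_nsmul, Polynomial.map_mul, roots_mul (by rwa [← Polynomial.map_mul]), Multiset.map_add,
    Multiset.prod_add, Multiset.map_congr rfl (g := fun z : AlgebraicClosure F => aeval z p), ← l2,
    Multiset.prod_eq_one (s := Multiset.map _ (roots (map _ h))), mul_one, ← map_pow] at l3
  · refine ⟨p * (b * h) + a * e, fun hs => hc ?_⟩
    rw [(algebraMap F _).injective l3] at hs
    obtain ⟨m, rfl⟩ := hk
    by_cases z : Algebra.norm F (AdjoinRoot.mk e p) = 0
    · rw [z]; exact IsSquare.zero
    obtain ⟨r, hr⟩ := hs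
    refine ⟨r / Algebra.norm F (AdjoinRoot.mk e p) ^ m, ?_⟩
    field_simp
    rw [sq r, ← hr, Algebra.norm_apply]; ring
  · intro x hx
    obtain ⟨z, hz, rfl⟩ := Multiset.mem_map.1 hx
    have hz : aeval z h = 0 := by simpa [← eval_map_algebraMap] using isRoot_of_mem_roots hz
    simpa [hz] using congrArg (aeval z) hab
  · intro z hz
    have hz : aeval z e = 0 := by simpa [← eval_map_algebraMap] using isRoot_of_mem_roots hz
    have := congrArg (aeval z) hab
    simp only [map_add, map_mul, hz, mul_zero, zero_add, add_zero, map_one] at this ⊢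
    rw [this, mul_one]

end H61.Ore
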