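import Cfsg.Agent.H68.CNKit2

/-! Jobs TR and LOW of the tower CN (covering number of `PSL(n,q)`). -/

set_option autoImplicit false

namespace H61.CN

open H68.CN Polynomial Module Matrix

universe u

variable {F : Type u} [Field F] {n : ℕ}

/-- The underlying matrix. -/
def vl (A : SpecialLinearGroup (Fin n) F) : Matrix (Fin n) (Fin n) F := A.1

theorem vl_mul (A B : SpecialLinearGroup (Fin n) F) : vl (A * B) = vl A * vl B := rfl

theorem vl_one : vl (1 : SpecialLinearGroup (Fin n) F) = 1 := rfl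

theorem vl_det (A : SpecialLinearGroup (Fin n) F) : (vl A).det = 1 := A.2

theorem mem_center_of {A : SpecialLinearGroup (Fin n) F} {c : F}
    (h : Matrix.toLin' (vl A) = c • (1 : End F (Fin n → F))) :
    A ∈ Subgroup.center (SpecialLinearGroup (Fin n) F) := by
  have e : vl A = c • (1 : Matrix (Fin n) (Fin n) F) :=
    Matrix.toLin'.injective (by rw [h, map_smul, Matrix.toLin'_one]; rfl)
  refine Matrix.SpecialLinearGroup.mem_center_iff.2 ⟨c, ?_, by
    rw [scalar_apply, ← smul_one_eq_diagonal]; exact e.symm⟩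
  have := vl_det A
  rwa [e, det_smul, det_one, mul_one] at this

theorem pw_lift (A : SpecialLinearGroup (Fin n) F) {k : ℕ} {y : End F (Fin n → F)}
    (h : Pw (Matrix.toLin' (vl A)) k y) : ∃ f : Fin k → SpecialLinearGroup (Fin n) F,
      y = Matrix.toLin' (vl (List.ofFn fun i => f i * A * (f i)⁻¹).prod) := by
  refine Pw.ind (P := fun k y => ∃ f : Fin k → SpecialLinearGroup (Fin n) F,
    y = Matrix.toLin' (vl (List.ofFn fun i => f i * A * (f i)⁻¹).prod)) ⟨Fin.elim0, ?_⟩ ?_ h
  · simp [Module.End.one_eq_id, vl_one]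
  rintro k z y ⟨g, hg, e⟩ - ⟨f, rfl⟩
  let H : SpecialLinearGroup (Fin n) F :=
    ⟨LinearMap.toMatrix' (g : (Fin n → F) →ₗ[F] (Fin n → F)), by rwa [LinearMap.det_toMatrix']⟩
  have hH : ∀ v, vl H *ᵥ v = g v := fun v => by
    rw [← Matrix.toLin'_apply]
    exact congrArg (· v) (Matrix.toLin'_toMatrix' (g : (Fin n → F) →ₗ[F] (Fin n → F)))
  have hz : z = Matrix.toLin' (vl (H * A * H⁻¹)) := by
    refine LinearMap.ext fun v => ?_
    obtain ⟨v, rfl⟩ := g.surjective v
    rw [← e, ← hH v, Matrix.toLin'_apply, Matrix.toLin'_apply, mulVec_mulVec,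
      ← vl_mul, inv_mul_cancel_right, vl_mul,
      ← mulVec_mulVec, hH]
  refine ⟨Fin.cons H f, ?_⟩
  rw [List.ofFn_succ, List.prod_cons, vl_mul, Matrix.toLin'_mul, hz]
  rfl

theorem mk_prod {G : Type*} [Group G] (N : Subgroup G) [N.Normal] {k : ℕ} (f : Fin k → G) (A : G) :
    ((List.ofFn fun i => f i * A * (f i)⁻¹).prod : G) =
      (List.ofFn fun i => (f i : G ⧸ N) * A * (f i : G ⧸ N)⁻¹).prod := by
  have := map_list_prod (QuotientGroup.mk' N) (List.ofFn fun i => f i * A * (f i)⁻¹)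
  rw [List.map_ofFn] at this
  exact this

theorem jobTR : JobTR.{u} := by
  intro hU F _ _ h4 n hn x hx g
  obtain ⟨A, rfl⟩ := QuotientGroup.mk_surjective x
  obtain ⟨B, rfl⟩ := QuotientGroup.mk_surjective g
  obtain ⟨h1, z, h2⟩ := hU F (Fin n → F) (Matrix.toLin' (vl A))
    (by rw [Cardinal.mk_fintype]; exact_mod_cast h4) (by simpa using hn)
    (by rw [LinearMap.det_toLin', vl_det])
    fun c e => hx ((QuotientGroup.eq_one_iff A).2 (mem_center_of e))
  by_cases hB : NS (Matrix.toLin' (vl B))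
  · have h3 := h1 _ (by rw [LinearMap.det_toLin', vl_det]) hB
    rw [Module.finrank_fin_fun] at h3
    obtain ⟨f, e⟩ := pw_lift A h3
    refine ⟨fun i => f i, ?_⟩
    rw [← mk_prod]
    exact congrArg _ (Subtype.ext (Matrix.toLin'.injective e))
  · rw [Module.finrank_fin_fun] at h2
    obtain ⟨f, e⟩ := pw_lift A h2
    simp only [NS, not_forall, not_not] at hB
    obtain ⟨c, hc⟩ := hB
    refine ⟨fun i => f i, ?_⟩
    rw [← mk_prod, (QuotientGroup.eq_one_iff B).2 (mem_center_of hc),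
      (QuotientGroup.eq_one_iff _).2 (mem_center_of e.symm)]

theorem prod_fix (L : List (SpecialLinearGroup (Fin n) F)) {v : Fin n → F}
    (h : ∀ A ∈ L, vl A *ᵥ v = v) : vl L.prod *ᵥ v = v := by
  induction L with
  | nil => simp [vl_one]
  | cons A L ih =>
    rw [List.prod_cons, vl_mul, ← mulVec_mulVec,
      ih fun B hB => h B (List.mem_cons_of_mem _ hB), h A List.mem_cons_self]

theorem jobLOW : JobLOW.{u} := by
  classical
  intro F _ n hn
  obtain ⟨m, rfl⟩ : ∃ m, n = m + 2 := ⟨n - 2, by omega⟩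
  let ε : F := if 1 + (-1 : F) ^ (m + 2) = 0 then 1 else 0
  let P : F[X] := X ^ (m + 2) + (C ε * X + C ((-1) ^ (m + 2)))
  have hlt : (C ε * X + C ((-1 : F) ^ (m + 2))).degree < ((m + 2 : ℕ) : WithBot ℕ) :=
    degree_linear_le.trans_lt (by exact_mod_cast (by omega : 1 < m + 2))
  have hm : P.Monic := monic_X_pow_add hlt
  have hd : P.natDegree = m + 2 := by
    rw [natDegree_add_eq_left_of_degree_lt (by rwa [degree_X_pow]), natDegree_X_pow]
  have hd' : P.natDegree = finrank F (Fin (m + 2) → F) := by rw [hd, Module.finrank_fin_fun]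
  obtain ⟨c, w, h1, h2⟩ := exists_model hm hd'
  have h3 : LinearMap.det c = 1 := by
    rw [det_of_cy h1 hm hd' h2, H60.Ore.dt, hd]
    simp only [P, coeff_add, coeff_X_pow, mul_coeff_zero, coeff_X_zero, coeff_C_zero, mul_zero]
    rw [if_neg (by omega), zero_add, zero_add, ← mul_pow]
    simp
  let B : SpecialLinearGroup (Fin (m + 2)) F :=
    ⟨LinearMap.toMatrix' c, by rwa [LinearMap.det_toMatrix']⟩
  have h01 : (0 : Fin (m + 2)) ≠ 1 := zero_ne_one
  let T := SpecialLinearGroup.transvection h01 (1 : F)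
  refine ⟨T, fun h => one_ne_zero ((SpecialLinearGroup.transvection_mem_center_iff h01 (1 : F)).1
    ((QuotientGroup.eq_one_iff T).1 h)), B, fun f e => ?_⟩
  choose g hg using fun i => QuotientGroup.mk_surjective (f i)
  simp only [← hg] at e
  rw [← mk_prod, QuotientGroup.eq, Matrix.SpecialLinearGroup.mem_center_iff] at e
  obtain ⟨r, hr, e⟩ := e
  rw [Fintype.card_fin] at hr
  let l : (Fin (m + 2) → F) →ₗ[F] (Fin (m + 2 - 1) → F) :=
    LinearMap.pi fun i => (LinearMap.proj 1).comp (Matrix.toLin' (vl (g i)⁻¹))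
  obtain ⟨v, hv, hv0⟩ := (Submodule.ne_bot_iff _).1
    (LinearMap.ker_ne_bot_of_finrank_lt (f := l) (by simp))
  have h4 := prod_fix (List.ofFn fun i => g i * T * (g i)⁻¹) (v := v) fun A hA => by
    obtain ⟨i, rfl⟩ := (List.mem_ofFn' _ _).1 hA
    have h5 : (vl (g i)⁻¹ *ᵥ v) 1 = 0 := congrFun (LinearMap.mem_ker.1 hv) i
    have h6 : vl T *ᵥ (vl (g i)⁻¹ *ᵥ v) = vl (g i)⁻¹ *ᵥ v := by
      rw [show vl T = 1 + single 0 1 1 from rfl, add_mulVec, one_mulVec, single_mulVec, h5]
      simp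
    simp only [vl_mul]
    rw [← mulVec_mulVec, ← mulVec_mulVec, h6, mulVec_mulVec, ← vl_mul,
      mul_inv_cancel, vl_one, one_mulVec]
  have hr0 : r ≠ 0 := fun h => by simp [h] at hr
  have h5 : c v = r⁻¹ • v := by
    have h6 : LinearMap.toMatrix' c * scalar _ r =
        vl (List.ofFn fun i => g i * T * (g i)⁻¹).prod := by
      rw [e]
      exact congrArg vl (mul_inv_cancel_left B _)
    rw [← h6, ← mulVec_mulVec, scalar_apply, ← smul_one_eq_diagonal, smul_mulVec, one_mulVec,
      mulVec_smul, ← Matrix.toLin'_apply, Matrix.toLin'_toMatrix'] at h4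
    rw [← h4, smul_smul, inv_mul_cancel₀ hr0, one_smul, h4]
  have h6 := aeval_eigen h5 P
  rw [h1.aeval_eq_zero h2, LinearMap.zero_apply] at h6
  have h7 := (smul_eq_zero.1 h6.symm).resolve_right hv0
  simp only [P, eval_add, eval_pow, eval_X, eval_mul, eval_C, inv_pow, hr, inv_one, ε] at h7
  split_ifs at h7 with h8
  · exact inv_ne_zero hr0 (by linear_combination h7 - h8)
  · exact h8 (by linear_combination h7)

end H61.CN
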