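import Cfsg.Agent.H97.GaSpec2

/-! GAG tower (S4841), slot C2: spans of the orbits of a normal subgroup. -/

set_option autoImplicit false
set_option linter.unusedSectionVars false

namespace H61.GaC

open Module

universe u v

theorem arith {p e n D : ℕ} (hp : p.Prime) (h7 : 7 ≤ p) (he : 0 < e) (hD : D ∣ 120) (h1 : D ≠ 1)
    (h : p ^ n = D * (p ^ e - 1) + 1) : e = 1 ∧ n = 2 ∧ D = p + 1 := by
  have D0 : D ≠ 0 := fun e => by rw [e] at hD; omega
  have Dl : D ≤ 120 := Nat.le_of_dvd (by norm_num) hD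
  have hQ : p ≤ p ^ e := Nat.le_self_pow he.ne' p
  obtain ⟨R, hR⟩ : ∃ R, p ^ e = R + 1 := ⟨p ^ e - 1, by omega⟩
  rw [hR, Nat.add_sub_cancel] at h
  have hlt : e < n := (Nat.pow_lt_pow_iff_right hp.one_lt).1 (by
    have : 2 * R ≤ D * R := Nat.mul_le_mul_right R (by omega)
    omega)
  have hd : p ^ e ∣ D - 1 := by
    have h2 : p ^ e ∣ p ^ n := pow_dvd_pow p hlt.le
    have h3 : D * p ^ e = p ^ n + (D - 1) := by rw [hR, h, mul_add, mul_one]; omega
    exact (Nat.dvd_add_right h2).1 (h3 ▸ dvd_mul_left _ _)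
  have hle : p ^ e ≤ D - 1 := Nat.le_of_dvd (by omega) hd
  have e1 : e = 1 := by
    by_contra h2
    have h3 : p ^ 2 ∣ D - 1 := (pow_dvd_pow p (by omega)).trans hd
    have key : ∀ D ∈ Nat.divisors 120, ∀ p ∈ Finset.range 120, 7 ≤ p → p ^ 2 ∣ D - 1 → D = 1 := by
      decide +kernel
    exact h1 (key D (Nat.mem_divisors.2 ⟨hD, by norm_num⟩) p (Finset.mem_range.2 (by omega)) h7 h3)
  subst e1
  rw [pow_one] at hd hle hR
  have h2 : D = p + 1 := by
    by_contra h2
    obtain ⟨n, rfl⟩ : ∃ k, n = k + 2 := ⟨n - 2, by omega⟩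
    have h3 : p * p ∣ D * R + 1 := ⟨p ^ n, by rw [← h]; ring⟩
    obtain rfl : R = p - 1 := by omega
    have h4 : p ≤ 119 := by omega
    have key : ∀ D ∈ Nat.divisors 120, ∀ p ∈ Finset.range 120, 7 ≤ p → p ∣ D - 1 →
        p * p ∣ D * (p - 1) + 1 → D = 1 ∨ D = p + 1 := by decide +kernel
    exact (key D (Nat.mem_divisors.2 ⟨hD, by norm_num⟩) p (Finset.mem_range.2 (by omega)) h7 hd h3).elim
      h1 h2
  refine ⟨rfl, Nat.pow_right_injective hp.two_le ?_, h2⟩
  change p ^ n = p ^ 2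
  rw [h, h2, hR]; ring

variable {p : ℕ} [Fact p.Prime] {H : Type u} [Group H] {V : Type v} [AddCommGroup V]
  [Module (ZMod p) V] [Finite V] (ρ : Representation (ZMod p) H V) (C : Subgroup H)

/-- The span of the orbit of `v`. -/
def W (v : V) : Submodule (ZMod p) V := Submodule.span _ {w | ∃ c ∈ C, ρ c v = w}

theorem self_mem (v : V) : v ∈ W ρ C v := Submodule.subset_span ⟨1, one_mem _, by simp⟩

theorem W_le {U : Submodule (ZMod p) V} (hU : ∀ c ∈ C, ∀ u ∈ U, ρ c u ∈ U) {v : V} (hv : v ∈ U) :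
    W ρ C v ≤ U := Submodule.span_le.2 (by rintro _ ⟨c, hc, rfl⟩; exact hU c hc v hv)

theorem app_mul (g h : H) (v : V) : ρ (g * h) v = ρ g (ρ h v) := by rw [map_mul]; rfl

theorem map_mem [hC : C.Normal] (g : H) {v w : V} (hw : w ∈ W ρ C v) : ρ g w ∈ W ρ C (ρ g v) := by
  refine (Submodule.span_le (p := (W ρ C (ρ g v)).comap (ρ g))).2 ?_ hw
  rintro _ ⟨c, hc, rfl⟩
  refine Submodule.subset_span ⟨g * c * g⁻¹, hC.conj_mem c hc g, ?_⟩
  rw [← app_mul, ← app_mul, inv_mul_cancel_right]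

theorem inv_mem' {c : H} (hc : c ∈ C) {v w : V} (hw : w ∈ W ρ C v) : ρ c w ∈ W ρ C v := by
  refine (Submodule.span_le (p := (W ρ C v).comap (ρ c))).2 ?_ hw
  rintro _ ⟨d, hd, rfl⟩
  exact Submodule.subset_span ⟨c * d, mul_mem hc hd, app_mul ρ c d v⟩

theorem app_inj (g : H) : Function.Injective (ρ g) := fun a b e => by
  have := congrArg (ρ g⁻¹) e
  rwa [← app_mul, ← app_mul, inv_mul_cancel, map_one] at this

theorem card_le [C.Normal] (g : H) (v : V) : Nat.card (W ρ C v) ≤ Nat.card (W ρ C (ρ g v)) :=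
  Nat.card_le_card_of_injective (fun w => ⟨ρ g w, map_mem ρ C g w.2⟩) fun _ _ e =>
    Subtype.ext (app_inj ρ g (congrArg Subtype.val e))

variable {ρ} (tr : ∀ v w : V, v ≠ 0 → w ≠ 0 → ∃ g, ρ g v = w)
include tr

theorem card_eq [C.Normal] {v w : V} (hv : v ≠ 0) (hw : w ≠ 0) :
    Nat.card (W ρ C v) = Nat.card (W ρ C w) := by
  obtain ⟨g, hg⟩ := tr v w hv hw
  obtain ⟨k, hk⟩ := tr w v hw hv
  exact le_antisymm (hg ▸ card_le ρ C g v) (hk ▸ card_le ρ C k w)

theorem W_eq [C.Normal] {v w : V} (hv : v ≠ 0) (hw : w ≠ 0) (h : w ∈ W ρ C v) :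
    W ρ C w = W ρ C v :=
  Submodule.toAddSubgroup_injective (AddSubgroup.eq_of_le_of_card_ge
    (W_le ρ C (fun _ hc _ hu => inv_mem' ρ C hc hu) h) (card_eq C tr hv hw).le)

theorem count [Finite H] [C.Normal] {v : V} (hv : v ≠ 0) : ∃ D, D ∣ C.index ∧
    Nat.card V - 1 = D * (Nat.card (W ρ C v) - 1) := by
  have ne : ∀ g, ρ g v ≠ 0 := fun g e => hv (app_inj ρ g (e.trans (map_zero _).symm))
  let S : Subgroup H :=
    { carrier := {g | ρ g v ∈ W ρ C v}
      one_mem' := by simpa using self_mem ρ C v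
      mul_mem' := fun {a b} ha hb => by
        have := map_mem ρ C a hb
        rwa [W_eq C tr hv (ne a) ha, ← app_mul] at this
      inv_mem' := fun {a} ha => by
        have := map_mem ρ C a⁻¹ ((W_eq C tr hv (ne a) ha).ge (self_mem ρ C v))
        rwa [← app_mul, inv_mul_cancel, map_one] at this }
  let _ : MulAction H V := MulAction.compHom V (ρ : H →* Module.End (ZMod p) V)
  have sm : ∀ (g : H) (w : V), g • w = ρ g w := fun _ _ => rfl
  have hT : MulAction.stabilizer H v ≤ S := fun g hg => by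
    change ρ g v ∈ W ρ C v
    rw [← sm, MulAction.mem_stabilizer_iff.1 hg]; exact self_mem ρ C v
  have h1 : (MulAction.stabilizer H v).index = Nat.card V - 1 := by
    rw [MulAction.index_stabilizer, show MulAction.orbit H v = Set.univ \ {0} from Set.ext fun w =>
      ⟨by rintro ⟨g, rfl⟩; exact ⟨trivial, ne g⟩, fun hw => tr v w hv hw.2⟩,
      Set.ncard_sdiff_singleton_of_mem (Set.mem_univ _), Set.ncard_univ]
  have h2 : (MulAction.stabilizer H v).relIndex S = Nat.card (W ρ C v) - 1 := by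
    rw [show (MulAction.stabilizer H v).relIndex S = (MulAction.stabilizer S v).index from rfl,
      MulAction.index_stabilizer, show MulAction.orbit S v = (W ρ C v : Set V) \ {0} from
        Set.ext fun w => ⟨by rintro ⟨g, rfl⟩; exact ⟨g.2, ne g⟩, fun hw => by
          obtain ⟨g, rfl⟩ := tr v w hv hw.2
          exact ⟨⟨g, hw.1⟩, rfl⟩⟩,
      Set.ncard_sdiff_singleton_of_mem (W ρ C v).zero_mem]
    rfl
  refine ⟨S.index, Subgroup.index_dvd_of_le fun c hc => inv_mem' ρ C hc (self_mem ρ C v), ?_⟩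
  rw [← h1, ← h2, mul_comm, Subgroup.relIndex_mul_index hT]

omit tr in
theorem comm_of_top [Nontrivial V] (h : ∀ v : V, v ≠ 0 → W ρ C v = ⊤) {a b : H}
    (ha : a ∈ Subgroup.centralizer (C : Set H)) (hb : b ∈ Subgroup.centralizer (C : Set H)) :
    ρ a * ρ b = ρ b * ρ a := by
  let A : Subring (Module.End (ZMod p) V) := Subring.centralizer (ρ '' C)
  have hA : ∀ g ∈ Subgroup.centralizer (C : Set H), ρ g ∈ A := by
    rintro g hg _ ⟨c, hc, rfl⟩
    rw [← map_mul, ← map_mul, hg c hc]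
  have : Finite (Module.End (ZMod p) V) := Finite.of_injective _ DFunLike.coe_injective
  have : NoZeroDivisors A := ⟨fun {f g} e => or_iff_not_imp_right.2 fun hg => by
    obtain ⟨v, hv⟩ : ∃ v, g.1 v ≠ 0 := by
      by_contra! hc
      exact hg (Subtype.ext (LinearMap.ext hc))
    have h1 : W ρ C (g.1 v) ≤ LinearMap.ker f.1 := W_le ρ C (fun c hc u hu => by
      have := LinearMap.congr_fun (f.2 _ ⟨c, hc, rfl⟩) u
      rw [Module.End.mul_apply, Module.End.mul_apply, LinearMap.mem_ker.1 hu, map_zero] at this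
      exact this.symm) (LinearMap.congr_fun (congrArg Subtype.val e) v)
    rw [h _ hv] at h1
    exact Subtype.ext (LinearMap.ext fun u => h1 trivial)⟩
  have : IsDomain A := NoZeroDivisors.to_isDomain A
  exact congrArg Subtype.val ((Finite.isDomain_to_isField A).mul_comm ⟨_, hA a ha⟩ ⟨_, hA b hb⟩)

omit tr in
theorem jobC2 : H97.Ga.JobC2.{u, v} := by
  intro p hp H _ _ V _ _ _ _ ρ h7 inj tr C _ hI ⟨a, ha, b, hb, hab⟩
  obtain ⟨v, hv⟩ := exists_ne (0 : V)
  obtain ⟨D, hD, hc⟩ := count C tr hv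
  have cV : Nat.card V = p ^ finrank (ZMod p) V := by
    rw [Module.natCard_eq_pow_finrank (K := ZMod p), Nat.card_zmod]
  have cW : ∀ w, Nat.card (W ρ C w) = p ^ finrank (ZMod p) (W ρ C w) := fun w => by
    rw [Module.natCard_eq_pow_finrank (K := ZMod p), Nat.card_zmod]
  have V0 : 0 < Nat.card V := Nat.card_pos
  have W0 : 0 < Nat.card (W ρ C v) := Nat.card_pos
  have D1 : D ≠ 1 := fun e => hab (inj (by
    rw [map_mul, map_mul]
    refine comm_of_top C (fun w hw => Submodule.toAddSubgroup_injective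
      (AddSubgroup.eq_top_of_le_card _ ?_)) ha hb
    have := card_eq C tr hv hw
    rw [e, one_mul] at hc
    change _ ≤ Nat.card (W ρ C w)
    omega))
  have : Nontrivial (W ρ C v) := ⟨⟨⟨v, self_mem ρ C v⟩, 0, fun e => hv (congrArg Subtype.val e)⟩⟩
  obtain ⟨e1, e2, e3⟩ := arith (n := finrank (ZMod p) V) hp.out h7
    (finrank_pos (R := ZMod p) (M := W ρ C v)) (hD.trans hI) D1 (by rw [← cV, ← cW]; omega)
  refine ⟨by rw [cV, e2], fun hd => ?_, e3 ▸ hD.trans hI⟩
  obtain ⟨g, hg⟩ := exists_prime_orderOf_dvd_card' p hd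
  have g1 : g ≠ 1 := fun e => by rw [e, orderOf_one] at hg; omega
  refine g1 (Subtype.ext (inj (LinearMap.ext fun w => ?_)))
  rw [OneMemClass.coe_one, map_one, Module.End.one_apply]
  by_cases hw : w = 0
  · rw [hw, map_zero]
  have f1 : finrank (ZMod p) (W ρ C w) = 1 := Nat.pow_right_injective hp.out.two_le (by
    change p ^ _ = p ^ 1
    rw [← cW, ← card_eq C tr hv hw, cW, e1])
  obtain ⟨c, hc⟩ := (finrank_eq_one_iff_of_nonzero' (⟨w, self_mem ρ C w⟩ : W ρ C w)
    fun e => hw (congrArg Subtype.val e)).1 f1 ⟨ρ g w, inv_mem' ρ C g.2 (self_mem ρ C w)⟩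
  replace hc : c • w = ρ g w := congrArg Subtype.val hc
  have hk : ∀ k : ℕ, ρ ((g : H) ^ k) w = c ^ k • w := fun k => by
    induction k with
    | zero => simp
    | succ k ih => rw [pow_succ', app_mul, ih, map_smul, ← hc, smul_smul, pow_succ]
  have := hk p
  rw [← Subgroup.coe_pow, show g ^ p = 1 by rw [← hg, pow_orderOf_eq_one], ZMod.pow_card, hc] at this
  simpa using this.symm

end H61.GaC
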