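import Cfsg.Agent.H34.K6Spec

/-! K64 tower, job V4a. -/

set_option autoImplicit false

namespace H61.K6

open Subgroup H34.K6 H92

universe u

theorem mm {P : Type*} [Group P] [Finite P] {A B : Subgroup P} (h : A ≤ B)
    (e : Nat.card B = 2 * Nat.card A) {a b : P} (ha : a ∈ B) (hb : b ∈ B) :
    a * b ∈ A ↔ (a ∈ A ↔ b ∈ A) := by
  have h1 := (A.subgroupOf B).index_mul_card
  rw [Nat.card_congr (subgroupOfEquivOfLe h).toEquiv, e] at h1
  exact mul_mem_iff_of_index_two (H := A.subgroupOf B) (Nat.eq_of_mul_eq_mul_right Nat.card_pos h1)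
    (a := ⟨a, ha⟩) (b := ⟨b, hb⟩)

theorem jobV4a : JobV4a.{u} := by
  intro P _ _ Q C s i u z G k zC zc z1 hC
  have zz := G.cen z zc
  have zc' := mem_center_iff.1 zc
  have mZ : ∀ g, g ∈ (⊥ : Subgroup P) ⊔ zpowers z ↔ g = 1 ∨ g = z := fun g => by
    rw [mem_dbl (by simp) (by simp [zz]), mem_bot, mem_bot, inv_mul_eq_one, eq_comm (a := z)]
  have cZ : Nat.card ↥((⊥ : Subgroup P) ⊔ zpowers z) = 2 := by
    rw [card_two (T := ⊥) (h := z) bot_le ((mZ z).2 (.inr rfl)) (by simpa using z1)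
      fun g hg => (mem_dbl (by simp) (by simp [zz])).1 hg, card_bot]
  have mC : ∀ {a b}, a ∈ C → b ∈ C → (a * b = 1 ∨ a * b = z ↔ (a = 1 ∨ a = z ↔ b = 1 ∨ b = z)) :=
    fun ha hb => by
      simpa only [mZ] using mm (sup_le bot_le (zpowers_le.2 zC)) (by rw [hC, cZ]) ha hb
  have Cab : ∀ a ∈ C, ∀ b ∈ C, a * b = b * a := fun a ha b hb => by
    by_cases h : a = 1 ∨ a = z
    · rcases h with rfl | rfl <;> simp [zc']
    by_cases h' : b = 1 ∨ b = z
    · rcases h' with rfl | rfl <;> simp [zc']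
    rcases (mC ha hb).2 (iff_of_false h h') with e | e
    · rw [eq_inv_of_mul_eq_one_left e]; simp
    · rw [eq_inv_mul_of_mul_eq e, mul_inv_cancel_left, mul_assoc, ← zc', inv_mul_cancel_left]
  have ui : u⁻¹ = u := inv_eq_of_mul_eq_one_right k.u2
  have iu : i * u = u * i := by rw [← mul_inv_eq_iff_eq_mul, k.iu, ui]
  have su : s * u * s⁻¹ = u := k.su.elim id fun e => e.trans ui
  have cQ : ∀ y, y * i = i * y → y * u = u * y → (∀ c ∈ C, y * c = c * y) → ∀ q ∈ Q, y * q = q * y :=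
    fun y h1 h2 h3 q hq => by
      have c1 : Commute y i := h1
      have c2 : Commute y u := h2
      obtain ⟨c, hc, rfl | rfl | rfl | rfl⟩ := k.mem q hq
      exacts [h3 _ hc, c2.mul_right (h3 c hc), c1.mul_right (h3 c hc),
        (c1.mul_right c2).mul_right (h3 c hc)]
  have Qab : ∀ a ∈ Q, ∀ b ∈ Q, a * b = b * a := fun a ha =>
    cQ a (cQ i rfl iu (fun c hc => (k.ci c hc).symm) a ha).symm
      (cQ u iu.symm rfl (fun c hc => (k.cu c hc).symm) a ha).symm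
      fun c hc => (cQ c (k.ci c hc) (k.cu c hc) (Cab c hc) a ha).symm
  set N := normalizer (Q : Set P)
  set R := C ⊔ zpowers u
  have cN : Nat.card N = 32 := by rw [k.cardN, k.card, hC]
  have iN : N.index = 2 := by have := N.index_mul_card; rw [cN, G.card] at this; omega
  have nN := normal_of_index_eq_two iN
  have QN : Q ≤ N := le_normalizer
  have sN : s ∈ N := mem_normalizer_of_finite k.sn
  have mQ := fun {a b} (ha : a ∈ N) (hb : b ∈ N) => mm QN k.cardN ha hb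
  have nq : ∀ n ∈ N, ∀ y, y ∈ Q ↔ n * y * n⁻¹ ∈ Q := fun n hn => mem_normalizer_iff.1 hn
  have cs : ∀ n ∈ N, n ∉ Q → ∀ y ∈ Q, n * y * n⁻¹ = s * y * s⁻¹ := fun n hn h y hy => by
    have := Qab _ ((k.memN.1 hn).resolve_left h) y hy
    calc _ = s * (s⁻¹ * n * y) * n⁻¹ := by group
      _ = _ := by rw [this]; group
  have fix : ∀ y ∈ Q, s * y * s⁻¹ = y → y ∈ R := fun y hy e => (k.memQ hy).resolve_right fun h => by
    have e2 : s * (i⁻¹ * y) * s⁻¹ = u⁻¹ * (i⁻¹ * y) := by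
      rw [← conj_mul, e, ← conj_inv, k.si]; group
    rcases k.memR.1 h with h | h
    · exact k.uC (inv_mem_iff.1 ((mul_mem_cancel_right h).1 (e2 ▸ k.sC _ h)))
    · have := k.sC _ h
      rw [← conj_mul, e2, ui, su] at this
      exact k.uC ((mul_mem_cancel_right (ui ▸ h)).1 this)
  obtain ⟨x, y, hxy⟩ := G.gen
  obtain ⟨g, gN, h, hN, gh⟩ := hxy.adapt iN
  have gg : ∀ g, g * g ∈ N := fun g => (mul_mem_iff_of_index_two iN).2 Iff.rfl
  have sw : ∀ g y, g * y * g⁻¹ ∈ Q ↔ g⁻¹ * y * g ∈ Q := fun g y => by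
    rw [nq _ (gg g) (g⁻¹ * y * g)]; congr! 1; group
  obtain ⟨g, gN, h, hQ, h', gh⟩ : ∃ g ∉ N, ∃ h ∈ Q, g * h * g⁻¹ ∉ Q ∧ Gn g h := by
    by_cases e : h ∈ Q ↔ g⁻¹ * h * g ∈ Q
    · let T : Subgroup P :=
        { carrier := {x | x ∈ N ∧ (x ∈ Q ↔ g⁻¹ * x * g ∈ Q)}
          one_mem' := by simp
          mul_mem' := fun {a b} ha hb => ⟨mul_mem ha.1 hb.1, by
            rw [show g⁻¹ * (a * b) * g = g⁻¹ * a * g * (g⁻¹ * b * g) by group, mQ ha.1 hb.1,
              mQ (nN.conj_mem' _ ha.1 g) (nN.conj_mem' _ hb.1 g), ha.2, hb.2]⟩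
          inv_mem' := fun {a} ha => ⟨inv_mem ha.1, by
            rw [show g⁻¹ * a⁻¹ * g = (g⁻¹ * a * g)⁻¹ by group, inv_mem_iff, inv_mem_iff, ha.2]⟩ }
      have := gh.max3 iN gN hN (K := T) ⟨hN, e⟩ ⟨nN.conj_mem _ hN g, by rw [sw, ← e]; congr! 1; group⟩
        ⟨gg g, by congr! 1; group⟩
      exact (gN (mem_normalizer_of_finite fun q hq => (sw g q).2 ((this (QN hq)).2.1 hq))).elim
    by_cases e' : h ∈ Q
    · exact ⟨g, gN, h, e', fun c => e (iff_of_true e' ((sw g h).1 c)), gh⟩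
    · refine ⟨g, gN, g⁻¹ * h * g, by tauto, by simpa [mul_assoc] using e', fun K h1 h2 => gh K h1 ?_⟩
      simpa [mul_assoc] using mul_mem (mul_mem h1 h2) (inv_mem h1)
  obtain ⟨g, gN, h', gh, g2⟩ : ∃ g ∉ N, g * h * g⁻¹ ∉ Q ∧ Gn g h ∧ g * g ∈ Q := by
    by_cases e : g * g ∈ Q
    · exact ⟨g, gN, h', gh, e⟩
    refine ⟨g * h, by rwa [mul_mem_cancel_right (QN hQ)], by simpa [mul_assoc] using h',
      fun K h1 h2 => gh K ((mul_mem_cancel_right h2).1 h1) h2, ?_⟩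
    rw [show g * h * (g * h) = g * h * g⁻¹ * (g * g) * h by group, mul_mem_cancel_right hQ]
    exact (mQ (nN.conj_mem _ (QN hQ) g) (gg g)).2 (iff_of_false h' e)
  have hN' := nN.conj_mem _ (QN hQ) g
  have fa : ∀ y ∈ Q, g⁻¹ * y * g ∈ Q → s * y * s⁻¹ = y := fun y hy e => by
    have := Qab _ hQ _ e
    rw [← cs _ hN' h' y hy]
    calc _ = g * (h * (g⁻¹ * y * g)) * h⁻¹ * g⁻¹ := by group
      _ = _ := by rw [this]; group
  have sC : ∀ c ∈ C, s * c * s⁻¹ = c := fun c hc => fa c (k.le hc) <| by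
    by_contra e
    have e1 : g⁻¹ * i * g ∉ Q := fun e => k.iR (fix i k.iQ (fa i k.iQ e))
    have e2 := (mQ (nN.conj_mem' _ (QN k.iQ) g) (nN.conj_mem' _ (QN (k.le hc)) g)).2
      (iff_of_false e1 e)
    have := mul_mem k.iQ (k.le hc)
    exact k.iR ((mul_mem_cancel_right (mem_sup_left hc)).1
      (fix _ this (fa _ this (by simpa [mul_assoc] using e2))))
  have sR : ∀ r ∈ R, s * r * s⁻¹ = r := fun r hr => by
    rcases k.memR.1 hr with e | e
    · exact sC r e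
    · have := sC _ e
      rwa [← conj_mul, ui, su, mul_right_inj] at this
  have NR : ∀ n ∈ N, ∀ r ∈ R, n * r * n⁻¹ = r := fun n hn r hr => by
    by_cases e : n ∈ Q
    · rw [Qab n e r (k.R_le hr), mul_inv_cancel_right]
    · rw [cs n hn e r (k.R_le hr), sR r hr]
  have gR : g * g ∈ R := fix _ g2 (fa _ g2 (by simpa [mul_assoc] using g2))
  have g4 : g * g * (g * g) = 1 := G.cen _ (mem_center_iff.2 fun x => mem_centralizer_singleton_iff.1
    (gh (centralizer {g * g}) (mem_centralizer_singleton_iff.2 (by group))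
      (mem_centralizer_singleton_iff.2 (Qab _ hQ _ g2)) ▸ mem_top x))
  have sq : ∀ q ∈ Q, ∀ a ∈ Q, a * a = 1 → a * q * (a * q) = q * q := fun q hq a ha e => by
    rw [mul_assoc, ← mul_assoc q, Qab q hq a ha, ← mul_assoc, ← mul_assoc, e, one_mul]
  have uR : u ∈ R := mem_sup_right (mem_zpowers u)
  obtain ⟨c, hc, hh⟩ : ∃ c ∈ C, h * h = c * c := by
    obtain ⟨c, hc, rfl | rfl | rfl | rfl⟩ := k.mem h hQ
    exacts [⟨_, hc, rfl⟩, ⟨c, hc, sq c (k.le hc) u k.uQ k.u2⟩, ⟨c, hc, sq c (k.le hc) i k.iQ k.i2⟩,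
      ⟨c, hc, sq c (k.le hc) _ (mul_mem k.iQ k.uQ) ((sq u k.uQ i k.iQ k.i2).trans k.u2)⟩]
  have hhu : s * h * s⁻¹ = h ∨ s * h * s⁻¹ = h * u := (k.memQ hQ).imp (sR h) fun e => by
    have := sR _ e
    rw [← conj_mul, ← conj_inv, k.si, inv_mul_eq_iff_eq_mul] at this
    rw [this, ← mul_assoc, k.iu, ui, Qab u k.uQ h hQ]
  obtain ⟨t, tR, tt, ht, hg, hht⟩ : ∃ t ∈ R, t * t = 1 ∧ h * h ∈ ⊥ ⊔ zpowers u ⊔ zpowers t ∧
      g * g ∈ ⊥ ⊔ zpowers u ⊔ zpowers t ∧ g * (h * h) * g⁻¹ = h * h := by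
    rcases hh ▸ (mC hc hc).2 Iff.rfl with e | e
    · exact ⟨_, gR, g4, e ▸ one_mem _, mem_sup_right (mem_zpowers _), by simp [e]⟩
    have m1 : u ∈ ⊥ ⊔ zpowers u ⊔ zpowers z := mem_sup_left (mem_sup_right (mem_zpowers _))
    have m2 : ∀ d ∈ C, d * d = 1 → d ∈ ⊥ ⊔ zpowers u ⊔ zpowers z := fun d hd e2 => by
      have c0 : ¬ (c = 1 ∨ c = z) := by
        rintro (rfl | rfl)
        · exact z1 (by rw [← e, hh, one_mul])
        · exact z1 (by rw [← e, hh, zz])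
      by_cases e3 : d = 1 ∨ d = z
      · rcases e3 with rfl | rfl
        exacts [one_mem _, mem_sup_right (mem_zpowers _)]
      have e4 := sq c (k.le hc) d (k.le hd) e2
      rw [← hh, e] at e4
      rcases (mC hd hc).2 (iff_of_false e3 c0) with e5 | e5 <;> rw [e5] at e4
      · exact (z1 (by rw [← e4, one_mul])).elim
      · exact (z1 (e4.symm.trans zz)).elim
    refine ⟨z, mem_sup_left zC, zz, e ▸ mem_sup_right (mem_zpowers _), ?_, by rw [e, zc']; simp⟩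
    rcases k.memR.1 gR with e2 | e2
    · exact m2 _ e2 g4
    · exact (mul_mem_cancel_left (inv_mem m1)).1 (m2 _ e2 (by rw [ui, sq _ g2 u k.uQ k.u2, g4]))
  have le : ⊥ ⊔ zpowers u ⊔ zpowers t ≤ R :=
    sup_le (sup_le bot_le (zpowers_le.2 uR)) (zpowers_le.2 tR)
  have d1 := dbl (T := ⊥) (h := u) (by simp) (by simp [k.u2])
  have d2 := dbl (T := ⊥ ⊔ zpowers u) (h := t) (fun x hx => by
    rwa [NR t (QN (k.R_le tR)) x (le (mem_sup_left hx))]) (tt ▸ one_mem _)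
  have d3 := dbl (T := ⊥ ⊔ zpowers u ⊔ zpowers t) (h := h) (fun x hx => by
    rwa [NR h (QN hQ) x (le hx)]) ht
  have m3 : h ∈ ⊥ ⊔ zpowers u ⊔ zpowers t ⊔ zpowers h := mem_sup_right (mem_zpowers h)
  have d4 := dbl (T := ⊥ ⊔ zpowers u ⊔ zpowers t ⊔ zpowers h) (h := g * h * g⁻¹)
    (nz_sup (fun x hx => by rw [NR _ hN' x (le hx)]; exact mem_sup_left hx) (by
      rw [cs _ hN' h' h hQ]
      rcases hhu with e | e <;> rw [e]
      exacts [m3, mul_mem m3 (mem_sup_left (mem_sup_left (mem_sup_right (mem_zpowers u))))]))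
    (by rw [conj_mul, hht]; exact mem_sup_left ht)
  have := card_le_of_le (gh.max3 iN gN (QN hQ) (mem_sup_left m3) (mem_sup_right (mem_zpowers _))
    (mem_sup_left (mem_sup_left hg)))
  rw [card_bot] at d1
  omega

end H61.K6
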