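/- Tower R3, slot Small: groups with at most three or five classes. -/
import Cfsg.Agent.H70.R3Spec
import Cfsg.Agent.H28.ConjCount

set_option autoImplicit false

namespace H61.R3

open H28

/-- A bound for the denominators of `k` unit fractions with sum `a / b`. -/
def bd : ℕ → ℕ → ℕ → ℕ
  | 0, _, _ => 0
  | k + 1, a, b => if a = 0 then 0 else
      (k + 1) * b / a ⊔ if k = 0 then 0 else
        (Finset.range ((k + 1) * b / a + 1)).sup fun m => bd k (a * m - b) (b * m)

theorem le_bd (k : ℕ) : ∀ a b : ℕ, 0 < b → ∀ s : Multiset ℕ, Multiset.card s = k →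
    (∀ n ∈ s, 0 < n) → (s.map fun n : ℕ => (n : ℚ)⁻¹).sum = a / b → ∀ n ∈ s, n ≤ bd k a b := by
  induction k with
  | zero => exact fun _ _ _ s hs _ _ n hn => by simp [Multiset.card_eq_zero.1 hs] at hn
  | succ k ih =>
    intro a b hb s hs hpos hsum n hn
    obtain ⟨m, hm, hmin⟩ := Multiset.exists_min_image id (s := s) (fun h => by simp [h] at hs)
    have hm0 : (0 : ℚ) < m := by exact_mod_cast hpos m hm
    have hb0 : (0 : ℚ) < b := by exact_mod_cast hb
    have h1 : (a : ℚ) / b ≤ (k + 1) * (m : ℚ)⁻¹ := by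
      have := Multiset.sum_le_card_nsmul (s.map fun n : ℕ => (n : ℚ)⁻¹) (m : ℚ)⁻¹ (by
        intro x hx
        obtain ⟨a, ha, rfl⟩ := Multiset.mem_map.1 hx
        exact inv_anti₀ hm0 (by exact_mod_cast hmin a ha))
      rw [hsum, Multiset.card_map, hs] at this
      simpa using this
    obtain ⟨t, rfl⟩ := Multiset.exists_cons_of_mem hm
    rw [Multiset.map_cons, Multiset.sum_cons] at hsum
    have ht : 0 ≤ (t.map fun n : ℕ => (n : ℚ)⁻¹).sum := Multiset.sum_nonneg fun x hx => by
      obtain ⟨a, -, rfl⟩ := Multiset.mem_map.1 hx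
      positivity
    have h3 : b ≤ a * m := by
      have : (m : ℚ)⁻¹ ≤ a / b := by linarith
      rw [inv_eq_one_div, div_le_div_iff₀ hm0 hb0, one_mul] at this
      exact_mod_cast this
    have ha : a ≠ 0 := by rintro rfl; omega
    have h2 : m ≤ (k + 1) * b / a := by
      rw [Nat.le_div_iff_mul_le (Nat.pos_of_ne_zero ha)]
      rw [← div_eq_mul_inv, div_le_div_iff₀ hb0 hm0] at h1
      rw [mul_comm]
      exact_mod_cast h1
    rw [bd, if_neg ha]
    rcases Multiset.mem_cons.1 hn with rfl | hn
    · exact h2.trans le_sup_left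
    · have hk : k ≠ 0 := by
        rintro rfl
        simp [Multiset.card_eq_zero.1 (show Multiset.card t = 0 by simpa using hs)] at hn
      rw [if_neg hk]
      refine (ih (a * m - b) (b * m) (Nat.mul_pos hb (hpos m hm)) t (by simpa using hs)
        (fun a ha => hpos a (Multiset.mem_cons_of_mem ha)) ?_ n hn).trans ?_
      · rw [eq_sub_of_add_eq' hsum, Nat.cast_sub h3]
        push_cast
        field_simp
      · exact (Finset.le_sup (f := fun m : ℕ => bd k (a * m - b) (b * m))
          (Finset.mem_range.2 (Nat.lt_succ_of_le h2))).trans le_sup_right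

universe u

theorem card_le_bd (G : Type u) [Group G] [Finite G] :
    Nat.card G ≤ bd (Nat.card (ConjClasses G)) 1 1 := by
  classical
  have := Fintype.ofFinite G
  have := Fintype.ofFinite (ConjClasses G)
  let c : ConjClasses G → ℕ := fun C => Nat.card (Subgroup.centralizer ({Quotient.out C} : Set G))
  have h0 : (Nat.card G : ℚ) ≠ 0 := by exact_mod_cast Nat.card_pos.ne'
  have h1 := sum_eq_sum_conjClasses (G := G) (fun _ => (Nat.card G : ℚ)⁻¹) fun _ _ _ => rfl
  rw [Finset.sum_const, Finset.card_univ, ← Nat.card_eq_fintype_card, nsmul_eq_mul,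
    mul_inv_cancel₀ h0] at h1
  have h2 := le_bd (Nat.card (ConjClasses G)) 1 1 one_pos (Finset.univ.val.map c)
    (by simp [Nat.card_eq_fintype_card]) (by
      intro n hn
      obtain ⟨C, -, rfl⟩ := Multiset.mem_map.1 hn
      exact Nat.card_pos) (by
      rw [Multiset.map_map, Nat.cast_one, div_one, h1]
      refine Finset.sum_congr rfl fun C _ => ?_
      have h3 : (c C : ℚ) ≠ 0 := by exact_mod_cast (Nat.card_pos (α := _)).ne'
      have h4 : (((Subgroup.centralizer ({Quotient.out C} : Set G)).index : ℕ) : ℚ) ≠ 0 := by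
        exact_mod_cast Subgroup.index_ne_zero_of_finite
      rw [← (Subgroup.centralizer ({Quotient.out C} : Set G)).index_mul_card, nsmul_eq_mul,
        Nat.cast_mul, mul_inv, ← mul_assoc, mul_inv_cancel₀ h4, one_mul]
      rfl) (c (ConjClasses.mk 1)) (Multiset.mem_map_of_mem c (Finset.mem_univ_val _))
  have h3 : Quotient.out (ConjClasses.mk (1 : G)) = 1 := by
    have : IsConj (Quotient.out (ConjClasses.mk (1 : G))) 1 :=
      ConjClasses.mk_eq_mk_iff_isConj.1 (Quotient.out_eq _)
    exact isConj_one_left.1 this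
  have h4 : c (ConjClasses.mk 1) = Nat.card G := by
    simp only [c, h3]
    rw [show Subgroup.centralizer ({1} : Set G) = ⊤ from
      eq_top_iff.2 fun g _ => Subgroup.mem_centralizer_singleton_iff.2 (by simp), Subgroup.card_top]
  rwa [← h4]

theorem bd_le : (∀ k ≤ 3, bd k 1 1 ≤ 6) ∧ ∀ k ≤ 5, bd k 1 1 ≤ 1806 := by decide +kernel

theorem jobSmall : H70.R3.JobSmall.{u} := fun G _ _ =>
  ⟨fun h => (card_le_bd G).trans (bd_le.1 _ h), fun h => (card_le_bd G).trans (bd_le.2 _ h)⟩

end H61.R3
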