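import Cfsg.Agent.H52.RCSpec

/-! Tower RC: the piece Y1. -/

set_option autoImplicit false

namespace H61.RCY1
open H52.RC Subgroup
universe u

theorem comm_conj {G : Type u} [Group G] {g r v : G} (h : Commute (g⁻¹ * r * g) v) :
    Commute r (g * v * g⁻¹) := by
  have := h.eq
  show r * (g * v * g⁻¹) = g * v * g⁻¹ * r
  calc r * (g * v * g⁻¹) = g * (g⁻¹ * r * g * v) * g⁻¹ := by group
    _ = g * v * g⁻¹ * r := by rw [this]; group

theorem jobY1 : JobY1.{u} := by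
  intro ka kb lc lz G _ _ m L hL hSt v hv htwo
  obtain ⟨-, ka2, -, -, ka5, ka6, -, -, ka9⟩ := ka G
  obtain ⟨lc1, lc2⟩ := lc G m hSt.1
  obtain ⟨-, -, lz3, lz4⟩ := lz G m L hSt
  obtain ⟨hv2, hvc, hvm, hsq, -, -⟩ := lz4 v hv
  by_cases h1 : v ^ 2 = 1
  · exact lc2 v h1 hvc
  obtain ⟨hvL, -, hvZ, g0, hg0, hi0⟩ := hv
  have hne : v⁻¹ ≠ v := fun h => h1 (by rw [pow_two]; nth_rewrite 1 [← h]; group)
  have hct : ∀ g ∈ Ct L v, g * v * g⁻¹ ≠ v → Inv g v := fun g hg hn => by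
    have h0 : g0 ∈ Ct L v := by
      rw [mem_Ct, hi0]
      have : v⁻¹ * v⁻¹ = (v ^ 2)⁻¹ := by rw [pow_two]; group
      rw [this]; exact inv_mem hvZ
    have := htwo g hg g0 h0 hn (by rw [hi0]; exact hne)
    rw [hi0] at this; exact this
  intro x hx g1 hg1 ho hi1
  by_contra hx1
  rw [mem_C1] at hx hg1
  obtain ⟨k, -, hs2, hk⟩ := ka2 g1
  have hsx := hk x hi1
  have hsv : Commute (g1 ^ k) v := hg1.pow_left k
  generalize g1 ^ k = s at hs2 hsx hsv
  have zp : ∀ a : G, P2 a → IsPGroup 2 (zpowers a) := fun a ha =>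
    (ka5 _).2 fun g hg => by
      obtain ⟨n, rfl⟩ := (mem_powers_iff_mem_zpowers.2 hg)
      exact ha.pow n
  have hR0 : IsPGroup 2 (zpowers v ⊔ zpowers s : Subgroup G) := by
    refine (zp v hv2).to_sup_of_normal_right' (zp s hs2) ?_
    refine le_trans ?_ (centralizer_le_normalizer _)
    rw [zpowers_le, mem_centralizer_iff]
    rintro _ ⟨n, rfl⟩
    exact (hsv.zpow_left n).eq
  obtain ⟨-, -, -, hT⟩ := kb G m hSt.1 x ho hx1 ⟨s, hsx⟩
  obtain ⟨T, hRT, hTx, hT2, hTc, -, -⟩ := hT _ hR0 (by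
    refine sup_le (zpowers_le.2 ?_) (zpowers_le.2 (mem_Cs.2 (Or.inr hsx)))
    exact mem_Cs.2 (Or.inl (by rw [hx.symm.eq]; group)))
  have hvT : v ∈ T := hRT (mem_sup_left (mem_zpowers v))
  have hsT : s ∈ T := hRT (mem_sup_right (mem_zpowers s))
  have hRne : T ⊓ C1 v ≠ T := fun h => by
    have := (ka9 (C1 v) T hT2 (inf_eq_left.1 h)).1
    rw [hTc, hvm] at this
    have := (Nat.pow_le_pow_iff_right (by norm_num : 1 < 2)).1 this
    omega
  obtain ⟨g, hgT, hgR, -, hgN⟩ := ka6 T (T ⊓ C1 v) hT2 inf_le_left hRne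
  have hgv : g * v * g⁻¹ ≠ v := fun h => hgR ⟨hgT, mem_C1.2 (by
    show g * v = v * g
    calc g * v = g * v * g⁻¹ * g := by group
      _ = v * g := by rw [h])⟩
  have hcen : ∀ r ∈ T ⊓ C1 v, Commute r (g * v * g⁻¹) := fun r hr => by
    have := (mem_normalizer_iff.1 (inv_mem hgN) r).1 hr
    rw [inv_inv] at this
    exact comm_conj (mem_C1.1 this.2)
  by_cases hg : g ∈ Ct L v
  · have hgi := hct g hg hgv
    rcases mem_Cs.1 (hTx hgT) with h | h
    · refine (lc1 v x (g * s) hv2 hvc ho hx1 hx.symm ?_ ?_).2 s hsv hsx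
      · unfold H52.RC.Inv at *
        calc g * s * v * (g * s)⁻¹ = g * (s * v) * s⁻¹ * g⁻¹ := by group
          _ = g * v * g⁻¹ := by rw [hsv.eq]; group
          _ = v⁻¹ := hgi
      · unfold H52.RC.Inv at *
        calc g * s * x * (g * s)⁻¹ = g * (s * x * s⁻¹) * g⁻¹ := by group
          _ = (g * x * g⁻¹)⁻¹ := by rw [hsx]; group
          _ = x⁻¹ := by rw [h]
    · exact (lc1 v x g hv2 hvc ho hx1 hx.symm hgi h).2 s hsv hsx
  · rw [mem_Ct] at hg
    have hwL : g * v * g⁻¹ * v⁻¹ ∈ L := mul_mem (hL.conj_mem v hvL g) (inv_mem hvL)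
    have hvv : Commute v (g * v * g⁻¹) := hcen v ⟨hvT, mem_C1.2 (Commute.refl v)⟩
    have hw2 : (g * v * g⁻¹ * v⁻¹) ^ 2 = 1 := by
      rw [hvv.symm.inv_right.mul_pow, conj_pow, (mem_center_iff.1 hsq g)]
      group
    have hxv : Commute x (g * v * g⁻¹) := by
      refine comm_conj ?_
      rcases mem_Cs.1 (hTx (inv_mem hgT)) with h | h
      · rw [inv_inv] at h; rw [h]; exact hx
      · unfold H52.RC.Inv at h; rw [inv_inv] at h; rw [h]; exact hx.inv_left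
    exact hx1 (lc2 _ hw2 (fun h => hg (lz3 _ hwL h)) x
      (mem_C1.2 (hxv.mul_right hx.inv_right)) s
      (mem_C1.2 ((hcen s ⟨hsT, mem_C1.2 hsv⟩).mul_right hsv.inv_right)) ho hsx)

end H61.RCY1
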