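import Cfsg.Agent.H91.VCSpec

/-! VC tower (row S4070), job BAD: a regular vector by double counting of eigenvectors. -/

set_option autoImplicit false
set_option linter.unusedSectionVars false

namespace H61.VCB

open H33.Solv H91.VC Subgroup MulAction Module

/-- The number of eigenvectors with nonzero eigenvalue. -/
theorem eig_count {K V : Type} [Field K] [Finite K] [AddCommGroup V] [Module K V] [Finite V]
    (f : Module.End K V) {b : ℕ} (hb : ∀ c : K, c ≠ 0 → Nat.card (f.eigenspace c) ≤ b)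
    (A : Finset V) (hA : ∀ v ∈ A, v ≠ 0 ∧ ∃ c : K, c ≠ 0 ∧ f v = c • v) :
    A.card ≤ b + finrank K V * Nat.card K ^ (finrank K V / 2) := by
  classical
  have := Fintype.ofFinite K
  have := Fintype.ofFinite V
  let S : Finset K := Finset.univ.filter fun c => c ≠ 0 ∧ f.eigenspace c ≠ ⊥
  let E : K → Finset V := fun c => Finset.univ.filter fun v => v ∈ f.eigenspace c
  have hE : ∀ c, (E c).card = Nat.card (f.eigenspace c) := fun c => by
    rw [Nat.card_eq_fintype_card, Fintype.card_subtype]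
  have h1 : A ⊆ S.biUnion E := fun v hv => by
    obtain ⟨h0, c, hc, e⟩ := hA v hv
    have hm : v ∈ f.eigenspace c := Module.End.mem_eigenspace_iff.2 e
    refine Finset.mem_biUnion.2 ⟨c, Finset.mem_filter.2 ⟨Finset.mem_univ _, hc, fun e' => h0 ?_⟩,
      Finset.mem_filter.2 ⟨Finset.mem_univ _, hm⟩⟩
    rwa [e', Submodule.mem_bot] at hm
  have hS : S.card ≤ finrank K V := by
    refine le_trans ?_ (f.eigenspaces_iSupIndep.subtype_ne_bot_le_finrank)
    rw [Fintype.card_subtype]
    exact Finset.card_le_card fun c hc =>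
      Finset.mem_filter.2 ⟨Finset.mem_univ _, (Finset.mem_filter.1 hc).2.2⟩
  have hq : 0 < Nat.card K := Nat.card_pos
  let p : K → Prop := fun c => finrank K (f.eigenspace c) ≤ finrank K V / 2
  have h2 : ∑ c ∈ S.filter p, (E c).card ≤ finrank K V * Nat.card K ^ (finrank K V / 2) := by
    refine (Finset.sum_le_card_nsmul _ _ (Nat.card K ^ (finrank K V / 2)) fun c hc => ?_).trans ?_
    · rw [hE, Module.natCard_eq_pow_finrank (K := K)]
      exact Nat.pow_le_pow_right hq (Finset.mem_filter.1 hc).2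
    · exact Nat.mul_le_mul_right _ ((Finset.card_filter_le _ _).trans hS)
  have h3 : (S.filter fun c => ¬ p c).card ≤ 1 := Finset.card_le_one.2 fun c hc d hd => by
    by_contra hne
    have hd' := Submodule.finrank_add_finrank_le_of_disjoint
      (f.eigenspaces_iSupIndep.pairwiseDisjoint hne)
    have e1 : ¬ finrank K (f.eigenspace c) ≤ finrank K V / 2 := (Finset.mem_filter.1 hc).2
    have e2 : ¬ finrank K (f.eigenspace d) ≤ finrank K V / 2 := (Finset.mem_filter.1 hd).2
    omega
  have h4 : ∑ c ∈ S.filter (fun c => ¬ p c), (E c).card ≤ b := by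
    refine (Finset.sum_le_card_nsmul _ _ b fun c hc => ?_).trans ?_
    · rw [hE]; exact hb c (Finset.mem_filter.1 (Finset.mem_filter.1 hc).1).2.1
    · rw [smul_eq_mul]
      exact (Nat.mul_le_mul_right _ h3).trans (one_mul b).le
  have h5 := (Finset.card_le_card h1).trans Finset.card_biUnion_le
  rw [← Finset.sum_filter_add_sum_filter_not S p] at h5
  exact h5.trans ((add_le_add h2 h4).trans (add_comm _ _).le)

theorem jobBAD : JobBAD := by
  intro K G V W _ _ _ _ _ _ _ _ _ _ _ _ _ s N π _ hodd b hb hlt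
  classical
  by_contra hno
  have hZn := s.normal
  set C : Subgroup G := centralizer (s.ι.range : Set G) with hC
  have hZC : ∀ c : Kˣ, s.ι c ∈ C := by
    rintro c _ ⟨d, rfl⟩
    rw [← map_mul, mul_comm, map_mul]
  let Q := C ⧸ s.ι.range.subgroupOf C
  have := Fintype.ofFinite Q
  have := Fintype.ofFinite V
  have hQ : Nat.card Q = s.ι.range.relIndex C := rfl
  have hQo : Odd (Nat.card Q) :=
    hodd.of_dvd_nat (hQ ▸ relIndex_dvd_index_of_normal s.ι.range C)
  let r : V → Q → Prop := fun v x => ∃ g : C, (g : Q) = x ∧ (g : G) • v = v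
  have key := Finset.card_mul_le_card_mul r (s := Finset.univ.erase (0 : V))
    (t := Finset.univ.erase (1 : Q)) (m := 2)
    (n := b + finrank K V * Nat.card K ^ (finrank K V / 2)) (fun v hv => by
      have h0 : v ≠ 0 := (Finset.mem_erase.1 hv).1
      obtain ⟨g, hg, g1⟩ : ∃ g ∈ C ⊓ stabilizer G v, g ≠ 1 := by
        by_contra hc
        exact hno ⟨v, h0, eq_bot_iff.2 fun g hg => by_contra fun e => hc ⟨g, hg, e⟩⟩
      have hx : ((⟨g, hg.1⟩ : C) : Q) ≠ 1 := fun e =>
        (s.fpf g (mem_subgroupOf.1 ((QuotientGroup.eq_one_iff (⟨g, hg.1⟩ : C)).1 e)) v hg.2).elim g1 h0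
      refine Finset.one_lt_card.2 ⟨((⟨g, hg.1⟩ : C) : Q), ?_, ((⟨g, hg.1⟩ : C) : Q)⁻¹, ?_, ?_⟩
      · exact (Finset.mem_bipartiteAbove _).2
          ⟨Finset.mem_erase.2 ⟨hx, Finset.mem_univ _⟩, ⟨g, hg.1⟩, rfl, hg.2⟩
      · exact (Finset.mem_bipartiteAbove _).2
          ⟨Finset.mem_erase.2 ⟨inv_ne_one.2 hx, Finset.mem_univ _⟩, (⟨g, hg.1⟩ : C)⁻¹, rfl,
            (inv_mem hg.2 : g⁻¹ ∈ stabilizer G v)⟩
      · intro e
        have h2 : orderOf ((⟨g, hg.1⟩ : C) : Q) = 2 :=
          orderOf_eq_prime (by rw [pow_two]; nth_rewrite 1 [e]; exact inv_mul_cancel _) hx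
        have := orderOf_dvd_natCard ((⟨g, hg.1⟩ : C) : Q)
        rw [h2] at this
        exact (Nat.not_even_iff_odd.2 hQo) (even_iff_two_dvd.2 this))
    (fun x hx => by
      have hx1 : x ≠ 1 := (Finset.mem_erase.1 hx).1
      obtain ⟨g, rfl⟩ := QuotientGroup.mk_surjective x
      have gZ : (g : G) ∉ s.ι.range := fun e => hx1 ((QuotientGroup.eq_one_iff _).2 e)
      refine eig_count (s.toLin (g := (g : G)) g.2) (fun c hc => ?_) _ fun v hv => ?_
      · refine le_trans (le_of_eq ?_) (hb ((s.ι (Units.mk0 c hc))⁻¹ * g)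
          (mul_mem (inv_mem (hZC _)) g.2) fun e => gZ ?_)
        · refine Nat.card_congr (Equiv.subtypeEquivRight fun v => ?_)
          rw [Module.End.mem_eigenspace_iff, mem_fix, mul_smul, inv_smul_eq_iff, s.smul]
          rfl
        · have := mul_mem (⟨Units.mk0 c hc, rfl⟩ : s.ι (Units.mk0 c hc) ∈ s.ι.range) e
          rwa [mul_inv_cancel_left] at this
      · obtain ⟨hv0, k, e, hk⟩ := (Finset.mem_bipartiteBelow _).1 hv
        obtain ⟨c, hc⟩ : ((k⁻¹ * g : C) : G) ∈ s.ι.range :=
          mem_subgroupOf.1 (QuotientGroup.eq.1 e)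
        refine ⟨(Finset.mem_erase.1 hv0).1, c, c.ne_zero, ?_⟩
        have e1 : (g : G) = k * s.ι c := by rw [hc]; simp
        show (g : G) • v = (c : K) • v
        rw [e1, mul_smul, s.smul, s.lin k.2, hk])
  rw [Finset.card_erase_of_mem (Finset.mem_univ _), Finset.card_erase_of_mem (Finset.mem_univ _),
    Finset.card_univ, Finset.card_univ, ← Nat.card_eq_fintype_card, ← Nat.card_eq_fintype_card,
    hQ] at key
  omega

end H61.VCB
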